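import Mathlib
import Cfsg.Agent.FRS.Loc
import Cfsg.Agent.PLocal.PIrred
import Cfsg.Agent.Block.AbSyl

/-! Fusion in an extraspecial Sylow subgroup of order 27 whose normaliser fixes its centre. -/

set_option autoImplicit false
set_option linter.unusedSectionVars false

namespace Cfsg.Agent.XS3

open Subgroup Cfsg Cfsg.Agent.PLocal.Amb Cfsg.Agent.FRS Cfsg.Agent.Block
open scoped commutatorElement

variable {G : Type*} [Group G] [Finite G]

instance : Fact (Nat.Prime 3) := ⟨Nat.prime_three⟩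

structure XS (P : Subgroup G) (z : G) : Prop where
  syl : IsSyl 3 P ⊤
  card : Nat.card P = 27
  ord : orderOf z = 3
  cen : P ⊓ 𝐂[P] = zpowers z
  comm : ∀ a ∈ P, ∀ b ∈ P, ⁅a, b⁆ ∈ zpowers z
  exp : ∀ x ∈ P, x ^ 3 = 1
  nc : 𝐍[P] ≤ centralizer {z}

theorem mem_zp {z v : G} (h : orderOf z = 3) : v ∈ zpowers z ↔ v = 1 ∨ v = z ∨ v = z⁻¹ := by
  classical
  have h3 : z ^ 3 = 1 := h ▸ pow_orderOf_eq_one z
  refine ⟨fun hv => ?_, by rintro (rfl | rfl | rfl) <;> simp⟩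
  obtain ⟨k, hk, rfl⟩ : ∃ k < 3, z ^ k = v := by
    simpa [h] using (mem_zpowers_iff_mem_range_orderOf.1 hv)
  interval_cases k
  · simp
  · simp
  · exact Or.inr (Or.inr (eq_inv_of_mul_eq_one_left (by rw [← pow_succ, h3])))

theorem ne_inv {z : G} (h : orderOf z = 3) : z ≠ z⁻¹ := fun e => by
  have := orderOf_dvd_of_pow_eq_one (show z ^ 2 = 1 by rw [sq]; exact mul_eq_one_iff_eq_inv.2 e)
  rw [h] at this
  omega

theorem mcs {a b : G} : a ∈ centralizer ({b} : Set G) ↔ a * b * a⁻¹ = b := by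
  rw [mem_centralizer_singleton_iff, mul_inv_eq_iff_eq_mul]

namespace XS

variable {P : Subgroup G} {z v : G} (h : XS P z)
include h

theorem mem : z ∈ P := (h.cen.ge (mem_zpowers z)).1

theorem zle : zpowers z ≤ P := zpowers_le.2 h.mem

theorem cz {a c : G} (ha : a ∈ centralizer ({z} : Set G)) (hc : c ∈ zpowers z) : a * c = c * a :=
  ((centralizer_zpowers z).ge ha c hc).symm

theorem pc : P ≤ centralizer {z} := le_normalizer.trans h.nc

theorem cj (g : G) : XS cj(g, P) (g * z * g⁻¹) where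
  syl := cj_top g ▸ h.syl.cj g
  card := (card_cj g P).trans h.card
  ord := (orderOf_conj' g z).trans h.ord
  cen := by rw [centralizer_cj, ← cj_inf, h.cen]; exact MonoidHom.map_zpowers _ _
  comm := by
    rintro _ ⟨a, ha, rfl⟩ _ ⟨b, hb, rfl⟩
    rw [← map_commutatorElement]
    exact (MonoidHom.map_zpowers (MulAut.conj g).toMonoidHom z).le
      (mem_map_of_mem _ (h.comm a ha b hb))
  exp := by rintro _ ⟨a, ha, rfl⟩; rw [← map_pow, h.exp a ha, map_one]
  nc := by rw [normalizer_cj, centralizer_singleton_conj]; exact cj_mono g h.nc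

theorem sub {C : Subgroup G} (hC : P ≤ C) : XS (P.subgroupOf C) ⟨z, hC h.mem⟩ where
  syl := by
    obtain ⟨Q, hQ⟩ := (h.syl.mono hC le_top).exists_sylow
    exact hQ ▸ isSyl_top Q
  card := (Nat.card_congr (subgroupOfEquivOfLe hC).toEquiv).trans h.card
  ord := (orderOf_mk _ _).trans h.ord
  cen := by
    rw [centralizer_subgroupOf hC]
    ext x
    rw [← mem_map_subtype (A := zpowers _), MonoidHom.map_zpowers]
    exact SetLike.ext_iff.1 h.cen (x : G)
  comm := fun a ha b hb => by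
    rw [← mem_map_subtype, MonoidHom.map_zpowers]; exact h.comm a ha b hb
  exp := fun x hx => Subtype.ext (h.exp x hx)
  nc := fun x hx => by
    rw [normalizer_eq_subgroupOf, map_subgroupOf_of_le hC] at hx
    exact mcs.2 (Subtype.ext (mcs.1 (h.nc hx)))

theorem idx (hv : v ∈ P) (hn : v ∉ zpowers z) : (centralizer {v}).relIndex P = 3 := by
  obtain ⟨k, hk⟩ := ex h.syl.pgrp (centralizer {v})
  have h1 := Grp.PChain.relIndex_centralizer_le P (zpowers z) (h.comm v hv)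
  rw [Nat.card_zpowers, h.ord, hk] at h1
  have h2 := pow_le (h1.trans (pow_one 3).ge)
  have h3 : k ≠ 0 := by
    rintro rfl
    exact hn (h.cen.le ⟨hv, fun g hg => mem_centralizer_singleton_iff.1 (relIndex_eq_one.1 hk hg)⟩)
  obtain rfl : k = 1 := by omega
  exact hk

theorem card9 (hv : v ∈ P) (hn : v ∉ zpowers z) : Nat.card ↥(P ⊓ centralizer {v}) = 9 := by
  have := Grp.card_mul_relIndex (inf_le_left : P ⊓ centralizer {v} ≤ P)
  rw [inf_relIndex_left, h.idx hv hn, h.card] at this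
  omega

theorem exists_conj (hv : v ∈ P) (hn : v ∉ zpowers z) {c : G} (hc : c ∈ zpowers z) :
    ∃ x ∈ P, x * v * x⁻¹ = c * v := by
  obtain ⟨x, hx, hxv⟩ : ∃ x ∈ P, x ∉ centralizer ({v} : Set G) := by
    by_contra! e
    have := h.idx hv hn
    rw [relIndex_eq_one.2 e] at this
    omega
  have h1 := h.comm x hx v hv
  have h2 : ∀ n : ℕ, x ^ n * v * (x ^ n)⁻¹ = ⁅x, v⁆ ^ n * v := fun n => by
    rw [← Grp.CommPow.commutator_pow_left (h.cz (h.pc hx) h1).symm, commutatorElement_def,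
      inv_mul_cancel_right]
  have h3 : zpowers z ≤ zpowers ⁅x, v⁆ := by
    rcases (mem_zp h.ord).1 h1 with e | e | e <;> rw [e]
    · exact absurd (mem_centralizer_singleton_iff.2 (commutatorElement_eq_one_iff_mul_comm.1 e)) hxv
    · simp
  obtain ⟨n, rfl⟩ := (mem_powers_iff_mem_zpowers.2 (h3 hc))
  exact ⟨_, pow_mem hx n, h2 n⟩

theorem iso1 {g : G} (hg : g * z * g⁻¹ ∈ zpowers z) : g * z * g⁻¹ = z := by
  obtain ⟨Q, rfl⟩ := h.syl.exists_sylow_top
  obtain ⟨m, hm, hn⟩ := Transfer.exists_mul_mem_normalizer Q (M := centralizer {g * z * g⁻¹})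
    (g := g) (fun x hx => mem_centralizer_singleton_iff.2 (h.cz (h.pc hx) hg)) (h.cj g).pc
  calc g * z * g⁻¹ = m * (g * z * g⁻¹) * m⁻¹ := (mcs.1 hm).symm
    _ = m * g * z * (m * g)⁻¹ := by group
    _ = z := mcs.1 (h.nc hn)

theorem zz : ¬ IsConj z z⁻¹ := fun e => by
  obtain ⟨g, hg⟩ := isConj_iff.1 e
  exact ne_inv h.ord ((h.iso1 (hg ▸ inv_mem (mem_zpowers z))).symm.trans hg)

theorem iso {g : G} (hg : g * z * g⁻¹ ∈ P) : g * z * g⁻¹ = z := by
  by_contra hne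
  have hn : g * z * g⁻¹ ∉ zpowers z := fun e => hne (h.iso1 e)
  obtain ⟨c, hc, hV⟩ := ((h.cj g).syl.mono (h.cj g).pc le_top).exists_le_cj
    (h.syl.pgrp.to_le h.zle) (zpowers_le.2 (mem_centralizer_singleton_iff.2
      (mem_centralizer_singleton_iff.1 (h.pc hg)).symm))
  have h' := (h.cj g).cj c
  rw [mcs.1 hc] at h'
  obtain ⟨y, -, hy⟩ := h'.exists_conj (hV (mem_zpowers z)) (fun e => by
    rcases (mem_zp h'.ord).1 e with e | e | e
    · have := h.ord; rw [e, orderOf_one] at this; omega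
    · exact hne e.symm
    · exact hn (by rw [← inv_mem_iff, ← e]; exact mem_zpowers z)) (inv_mem (mem_zpowers _))
  obtain ⟨x, -, hx⟩ := h.exists_conj (inv_mem hg) (by rwa [inv_mem_iff]) (mem_zpowers z)
  rw [← mem_centralizer_singleton_iff.1 (h.pc (inv_mem hg)), ← hy] at hx
  refine h.zz (isConj_iff.2 ⟨(x * g)⁻¹ * y, ?_⟩)
  calc _ = (x * g)⁻¹ * (y * z * y⁻¹) * (x * g) := by group
    _ = _ := by rw [← hx]; group

theorem nmem {g : G} (hv : v ∈ P) (hn : v ∉ zpowers z) : v ∉ zpowers (g * z * g⁻¹) := fun e => by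
  rcases (mem_zp (h.cj g).ord).1 e with e | e | e
  · exact hn (e ▸ one_mem _)
  · exact hn (by rw [e, h.iso (e ▸ hv)]; exact mem_zpowers z)
  · exact hn (by rw [e, h.iso (inv_mem_iff.1 (e ▸ hv))]; exact inv_mem (mem_zpowers z))

theorem nmem' {g : G} (hv : v ∈ P) (hn : v ∉ zpowers z) : g * v * g⁻¹ ∉ zpowers z := fun e =>
  h.nmem (g := g⁻¹) hv hn (by
    rw [← conj_mem_cj_iff (g := g), MonoidHom.map_zpowers]
    simpa [mul_assoc] using e)

theorem syl9 (hv : v ∈ P) (hn : v ∉ zpowers z) :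
    IsSyl 3 (P ⊓ centralizer {v}) (centralizer {v}) := by
  obtain ⟨T, hT, hle⟩ := exists_isSyl_ge (R := P ⊓ centralizer {v}) h.syl.pgrp.to_inf_left
    inf_le_right
  obtain ⟨g, -, hg⟩ := h.syl.exists_le_cj hT.pgrp le_top
  refine hT.of_card_ge h.syl.pgrp.to_inf_left inf_le_right ?_
  rw [h.card9 hv hn, ← (h.cj g).card9 (hg (hle ⟨hv, mcs.2 (by simp)⟩)) (h.nmem hv hn)]
  exact card_le_of_le (le_inf hg hT.le)

theorem zV (hv : v ∈ P) : z ∈ P ⊓ centralizer {v} :=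
  ⟨h.mem, mem_centralizer_singleton_iff.2 (mem_centralizer_singleton_iff.1 (h.pc hv)).symm⟩

theorem cV (hv : v ∈ P) (hn : v ∉ zpowers z) {n : G} (h1 : n ∈ centralizer ({z} : Set G))
    (h2 : n ∈ centralizer ({v} : Set G)) : n ∈ 𝐂[P ⊓ centralizer {v}] := by
  have hle := zpowers_le.2 (h.zV hv)
  have := Grp.card_mul_relIndex hle
  rw [Nat.card_zpowers, h.ord, h.card9 hv hn] at this
  rw [mem_centralizer_singleton_iff] at h1 h2
  exact fun w hw => mem_centralizer_singleton_iff.1 (gen (H := centralizer {n})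
    (by rw [show (zpowers z).relIndex _ = 3 by omega]; exact Nat.prime_three) hle
    (zpowers_le.2 (mem_centralizer_singleton_iff.2 h1.symm))
    (mem_centralizer_singleton_iff.2 h2.symm) ⟨hv, mcs.2 (by simp)⟩ hn hw)

theorem nil (hv : v ∈ P) (hn : v ∉ zpowers z) :
    HasNormalPComplement 3 (centralizer ({v} : Set G)) := by
  obtain ⟨Q, hQ⟩ := (h.syl9 hv hn).exists_sylow
  refine Transfer.hasNormalPComplement_of_normalizer_le_centralizer Q fun n hm => ?_
  rw [hQ, normalizer_eq_subgroupOf, map_subgroupOf_of_le inf_le_right] at hm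
  rw [hQ, centralizer_subgroupOf inf_le_right]
  exact h.cV hv hn (mcs.2 (h.iso (conj_mem_of_mem_normalizer hm (h.zV hv)).1)) n.2

theorem fac (hv : v ∈ P) (hn : v ∉ zpowers z) :
    3 ^ (Nat.card (centralizer ({v} : Set G))).factorization 3 = 9 := by
  rw [← (h.syl9 hv hn).card_eq_pow, h.card9 hv hn]

theorem le_cm (hv : v ∈ P) : P ≤ PLocal.CommMod.centMod (zpowers v) (zpowers z) := fun x hx =>
  ⟨centralizer_le_normalizer' _ ((centralizer_zpowers z).ge (h.pc hx)),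
    fun y hy => h.comm x hx y (zpowers_le.2 hv hy)⟩

theorem ctrl (hv : v ∈ P) (hn : v ∉ zpowers z) {g : G} (hw : g * v * g⁻¹ ∈ P) :
    ∃ n ∈ 𝐍[P], n * v * n⁻¹ = g * v * g⁻¹ := by
  have hwn := h.nmem' (g := g) hv hn
  obtain ⟨c, hc, hle⟩ := (h.syl9 hw hwn).exists_cj_le ((h.cj g).syl.pgrp.to_le (h.cj g).zle)
    (zpowers_le.2 ((h.cj g).zV (conj_mem_cj g hv)).2)
  have hz : c * g * z * (c * g)⁻¹ = z := h.iso (by
    simpa [mul_assoc] using (hle (conj_mem_cj c (mem_zpowers _))).1)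
  have e : c * g * v * (c * g)⁻¹ = g * v * g⁻¹ := by rw [← mcs.1 hc]; group
  have h' := h.cj (c * g)
  rw [hz] at h'
  obtain ⟨Q, rfl⟩ := h.syl.exists_sylow_top
  obtain ⟨m, hm, hN⟩ := Transfer.exists_mul_mem_normalizer Q (h.le_cm hw)
    (h'.le_cm (e ▸ conj_mem_cj _ hv))
  obtain ⟨x, hx, hx'⟩ := h.exists_conj hw hwn (hm.2 _ (mem_zpowers _))
  refine ⟨_, mul_mem (inv_mem (le_normalizer hx)) hN, ?_⟩
  rw [commutatorElement_def, inv_mul_cancel_right, ← e] at hx'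
  calc _ = x⁻¹ * (m * (c * g * v * (c * g)⁻¹) * m⁻¹) * x := by group
    _ = _ := by rw [← hx', ← e]; group

theorem free (hv : v ∈ P) (hn : v ∉ zpowers z) {n : G} (hN : n ∈ 𝐍[P])
    (hc : n ∈ centralizer ({v} : Set G)) : n ∈ P ⊔ 𝐂[P] := by
  have h3 : n ^ 3 ∈ 𝐂[P] := fun x hx => by
    have hx' : x ∈ P := hx
    have e1 : n * ⁅x, v⁆ = ⁅x, v⁆ * n := h.cz (h.nc hN) (h.comm x hx v hv)
    have e2 := mem_centralizer_singleton_iff.1 hc
    have hw : x⁻¹ * (n * x * n⁻¹) ∈ P ⊓ centralizer {v} :=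
      mem_inf.2 ⟨mul_mem (inv_mem hx') (conj_mem_of_mem_normalizer hN hx'), mcs.2 (by
        calc _ = x⁻¹ * n * x * (n⁻¹ * (v * n)) * x⁻¹ * n⁻¹ * x := by group
          _ = x⁻¹ * (n * ⁅x, v⁆) * v * n⁻¹ * x := by rw [← e2, commutatorElement_def]; group
          _ = x⁻¹ * ⁅x, v⁆ * (n * v) * n⁻¹ * x := by rw [e1]; group
          _ = v := by rw [e2, commutatorElement_def]; group)⟩
    have e3 : Commute _ n := h.cV hv hn (h.nc hN) hc _ hw
    have e4 := h.exp _ hw.1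
    generalize hw' : x⁻¹ * (n * x * n⁻¹) = w at e3 e4
    have e5 : ∀ k : ℕ, n ^ k * x = x * w ^ k * n ^ k := fun k => by
      induction k with
      | zero => simp
      | succ k ih =>
        calc _ = n ^ k * x * w * n := by rw [← hw']; group
          _ = x * w ^ k * (n ^ k * w) * n := by rw [ih]; group
          _ = _ := by rw [← (e3.pow_right k).eq]; group
    rw [e5, e4, mul_one]
  rw [← pPart_mul_pReg 3 n]
  refine mul_mem_sup (zpowers_le.1 (h.syl.le_of_normalizes (isPGroup_zpowers_pPart 3 n) le_top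
    (zpowers_le.2 (pPart_mem hN)))) (mem_of_pow_mem_of_coprime (n := 3) ?_
      (not_dvd_iff_coprime.1 (not_dvd_orderOf_pReg 3 n)))
  obtain ⟨k, hk⟩ := exists_pReg_eq_pow 3 n
  rw [← hk, ← pow_mul, mul_comm, pow_mul]
  exact pow_mem h3 k

theorem ple : P ⊔ 𝐂[P] ≤ 𝐍[P] := sup_le le_normalizer (centralizer_le_normalizer' P)

theorem ncard (hv : v ∈ P) (hn : v ∉ zpowers z) :
    (ncl P v).ncard = 3 * (P ⊔ 𝐂[P]).relIndex 𝐍[P] := by
  rw [ncard_ncl, ← inf_relIndex_right, ← relIndex_mul_relIndex (centralizer {v} ⊓ 𝐍[P]) _ _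
    (fun n hn' => h.free hv hn hn'.2 hn'.1) h.ple, ← inf_relIndex_right, inf_assoc,
    inf_of_le_right h.ple, inf_relIndex_right, PLocal.CP.relIndex_sup_eq
      (centralizer_le (by simpa using hv)) (centralizer_le_normalizer' P), h.idx hv hn]

theorem real (he : 2 ∣ (P ⊔ 𝐂[P]).relIndex 𝐍[P]) (hv : v ∈ P) (hn : v ∉ zpowers z) :
    IsConj v v⁻¹ := by
  have := normal_subgroupOf' (le_normalizer_sup le_rfl (normalizer_le_normalizer_centralizer P))
  obtain ⟨q, hq⟩ := exists_prime_orderOf_dvd_card' (G := 𝐍[P] ⧸ (P ⊔ 𝐂[P]).subgroupOf 𝐍[P]) 2 he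
  obtain ⟨⟨t, ht⟩, rfl⟩ := QuotientGroup.mk_surjective q
  have h1 : t ∉ P ⊔ 𝐂[P] := fun e => by
    rw [(QuotientGroup.eq_one_iff (⟨t, ht⟩ : 𝐍[P])).2 e, orderOf_one] at hq; omega
  have h2 : t ^ 2 ∈ P ⊔ 𝐂[P] := (QuotientGroup.eq_one_iff (N := (P ⊔ 𝐂[P]).subgroupOf 𝐍[P])
    ((⟨t, ht⟩ : 𝐍[P]) ^ 2)).1 (by rw [QuotientGroup.mk_pow, ← hq, pow_orderOf_eq_one])
  have hv' := conj_mem_of_mem_normalizer ht hv
  by_cases hw : v * (t * v * t⁻¹) ∈ zpowers z
  · obtain ⟨x, -, hx⟩ := h.exists_conj (inv_mem hv) (by rwa [inv_mem_iff]) hw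
    rw [← h.cz (h.pc (inv_mem hv)) hw, inv_mul_cancel_left] at hx
    exact (isConj_iff.2 ⟨t, rfl⟩).trans (isConj_iff.2 ⟨x, hx⟩).symm
  obtain ⟨a, ha, c, hc, e⟩ := (mem_sup_of_le_normalizer_left (centralizer_le_normalizer' P)).1 h2
  have hz := h.comm a ha v hv
  obtain ⟨x, hx, hx'⟩ := h.exists_conj (mul_mem hv hv') hw (mul_mem hz (h.comm _ hv' v hv))
  refine absurd ?_ h1
  rw [← mul_inv_cancel_left x t]
  refine mul_mem (mem_sup_left hx) (h.free (mul_mem hv hv') hw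
    (mul_mem (inv_mem (le_normalizer hx)) ht) (mcs.2 ?_))
  calc _ = x⁻¹ * (t * v * t⁻¹ * (t ^ 2 * v * (t ^ 2)⁻¹)) * x := by group
    _ = x⁻¹ * (t * v * t⁻¹ * ⁅a, v⁆ * v) * x := by
      rw [e, mul_assoc a, ← hc v hv, commutatorElement_def]; group
    _ = x⁻¹ * (⁅a, v⁆ * ⁅t * v * t⁻¹, v⁆ * (v * (t * v * t⁻¹))) * x := by
      rw [h.cz (h.pc hv') hz, commutatorElement_def (t * v * t⁻¹)]; group
    _ = _ := by rw [← hx']; group

end XS

/-- Representatives of the classes of `G` meeting `P` outside its centre. -/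
structure Reps (P : Subgroup G) (z : G) {T : Type*} (u : T → G) : Prop where
  mem : ∀ t, u t ∈ P
  nmem : ∀ t, u t ∉ zpowers z
  cov : ∀ v ∈ P, v ∉ zpowers z → ∃ t, IsConj v (u t)
  inj : ∀ s t, IsConj (u s) (u t) → s = t

theorem exists_reps (P : Subgroup G) (z : G) : ∃ (n : ℕ) (u : Fin n → G), Reps P z u := by
  let S := (IsConj.setoid G).comap (Subtype.val : {v // v ∈ P ∧ v ∉ zpowers z} → G)
  let e := Finite.equivFin (Quotient S)
  refine ⟨_, fun t => (e.symm t).out, fun t => (e.symm t).out.2.1, fun t => (e.symm t).out.2.2,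
    fun v h1 h2 => ⟨e (Quotient.mk S ⟨v, h1, h2⟩), ?_⟩, fun s t hst =>
      e.symm.injective (Quotient.out_equiv_out.1 hst)⟩
  rw [Equiv.symm_apply_apply]
  exact IsConj.symm (Quotient.mk_out (s := S) ⟨v, h1, h2⟩)

namespace XS

variable {P : Subgroup G} {z : G} {T : Type*} {u : T → G} (h : XS P z) (r : Reps P z u)
include h r

theorem count [Fintype T] : Fintype.card T * (P ⊔ 𝐂[P]).relIndex 𝐍[P] = 8 := by
  have h1 : (P : Set G) \ zpowers z = ⋃ t, ncl P (u t) := by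
    ext v
    rw [Set.mem_iUnion]
    refine ⟨fun ⟨h1, h2⟩ => ?_, fun ⟨t, n, hn, e⟩ =>
      e ▸ ⟨conj_mem_of_mem_normalizer hn (r.mem t), h.nmem' (r.mem t) (r.nmem t)⟩⟩
    obtain ⟨t, ht⟩ := r.cov v h1 h2
    obtain ⟨g, rfl⟩ := isConj_iff.1 ht.symm
    exact ⟨t, h.ctrl (r.mem t) (r.nmem t) h1⟩
  have h2 := congrArg Set.ncard h1
  rw [Set.ncard_iUnion_of_finite (fun _ => Set.toFinite _) (fun s t hst => Set.disjoint_left.2
    fun v h1 h2 => hst (r.inj s t ((isConj_of_mem_ncl h1).trans (isConj_of_mem_ncl h2).symm))),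
    Set.ncard_sdiff h.zle, ← Nat.card_coe_set_eq, ← Nat.card_coe_set_eq, finsum_eq_sum_of_fintype,
    Finset.sum_congr rfl fun t _ => h.ncard (r.mem t) (r.nmem t), Finset.sum_const] at h2
  erw [h.card, Nat.card_zpowers, h.ord] at h2
  rw [smul_eq_mul, Finset.card_univ, mul_left_comm] at h2
  omega

theorem reps_sub : Reps (P.subgroupOf (centralizer {z})) ⟨z, h.pc h.mem⟩
    fun t => ⟨u t, h.pc (r.mem t)⟩ where
  mem := r.mem
  nmem := fun t e => r.nmem t (by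
    rw [← mem_map_subtype, MonoidHom.map_zpowers] at e; exact e)
  cov := fun v h1 h2 => by
    have h3 : (v : G) ∉ zpowers z := fun e => h2 (by
      rw [← mem_map_subtype, MonoidHom.map_zpowers]; exact e)
    obtain ⟨t, ht⟩ := r.cov v h1 h3
    obtain ⟨g, hg⟩ := isConj_iff.1 ht
    obtain ⟨n, hn, e⟩ := h.ctrl h1 h3 (g := g) (hg ▸ r.mem t)
    exact ⟨t, isConj_iff.2 ⟨⟨n, h.nc hn⟩, Subtype.ext (e.trans hg)⟩⟩
  inj := fun s t e => r.inj s t ((centralizer {z}).subtype.map_isConj e)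

theorem cls {g : G} (hg : ∃ k, orderOf g = 3 ^ k) :
    g = 1 ∨ IsConj g z ∨ IsConj g z⁻¹ ∨ ∃ t, IsConj g (u t) := by
  obtain ⟨c, -, hc⟩ := h.syl.exists_cj_le (orderOf_eq_pow_iff_isPGroup.1 hg) le_top
  have h1 : IsConj g (c * g * c⁻¹) := isConj_iff.2 ⟨c, rfl⟩
  by_cases e : c * g * c⁻¹ ∈ zpowers z
  · rcases (mem_zp h.ord).1 e with e | e | e <;> rw [e] at h1
    · exact Or.inl (isConj_one_left.1 h1)
    · exact Or.inr (Or.inl h1)
    · exact Or.inr (Or.inr (Or.inl h1))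
  · obtain ⟨t, ht⟩ := r.cov _ (hc (conj_mem_cj c (mem_zpowers g))) e
    exact Or.inr (Or.inr (Or.inr ⟨t, h1.trans ht⟩))

theorem nconj {c : G} (hc : c ∈ zpowers z) (t : T) : ¬ IsConj (u t) c := fun e => by
  obtain ⟨g, rfl⟩ := isConj_iff.1 e
  exact h.nmem' (r.mem t) (r.nmem t) hc

theorem ordu (t : T) : orderOf (u t) = 3 :=
  orderOf_eq_prime (h.exp _ (r.mem t)) fun e => r.nmem t (e ▸ one_mem _)

omit r in
theorem nil_top (he : (P ⊔ 𝐂[P]).relIndex 𝐍[P] = 1) : HasNormalPComplement 3 G := by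
  obtain ⟨Q, rfl⟩ := h.syl.exists_sylow_top
  refine Transfer.hasNormalPComplement_of_no_fusion Q fun x hx g hg => ?_
  by_cases e : x ∈ zpowers z
  · refine ⟨1, one_mem _, ?_⟩
    rcases (mem_zp h.ord).1 e with rfl | rfl | rfl
    · simp
    · simp [h.iso hg]
    · have := h.iso (g := g) (by simpa [mul_assoc] using (Q : Subgroup G).inv_mem hg)
      rw [← conj_inv, ← conj_inv, this]; simp
  obtain ⟨n, hn, e⟩ := h.ctrl hx e hg
  obtain ⟨a, ha, c, hc, rfl⟩ := (mem_sup_of_le_normalizer_left (centralizer_le_normalizer' _)).1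
    (relIndex_eq_one.1 he hn)
  exact ⟨a, ha, by rw [← e, mul_assoc a c, ← hc x hx]; group⟩

end XS

end Cfsg.Agent.XS3
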