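import Mathlib

/-! Integral vectors for the principal `3`-block with extraspecial defect group of order 27. -/

set_option autoImplicit false
set_option linter.unusedSectionVars false

namespace Cfsg.Agent.XS3

open Finset

variable {I T J : Type*} [Fintype I] [DecidableEq I]

theorem sq_le_dot (r : I → ℤ) (s : Finset I) : ∑ i ∈ s, r i * r i ≤ r ⬝ᵥ r :=
  sum_le_sum_of_subset_of_nonneg (subset_univ s) fun _ _ _ => mul_self_nonneg _

theorem one_le_sq {a : ℤ} (h : a ≠ 0) : 1 ≤ a * a := mul_self_pos.2 h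

theorem ex_ne {r v : I → ℤ} (h : r ⬝ᵥ v ≠ 0) : ∃ i, r i ≠ 0 := by
  by_contra! e
  exact h (by simp [dotProduct, e])

theorem norm1 {r : I → ℤ} (h : r ⬝ᵥ r = 1) : ∃ a, r a * r a = 1 ∧ (∀ i, i ≠ a → r i = 0) ∧
    ∀ v, r ⬝ᵥ v = r a * v a := by
  obtain ⟨a, ha⟩ := ex_ne (h ▸ one_ne_zero : r ⬝ᵥ r ≠ 0)
  have h0 : ∀ i, i ≠ a → r i = 0 := fun i hi => by
    by_contra e
    have := sq_le_dot r {i, a}
    rw [sum_pair hi] at this
    linarith [one_le_sq ha, one_le_sq e]
  have h1 : ∀ v, r ⬝ᵥ v = r a * v a := fun v =>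
    sum_eq_single a (fun i _ hi => by rw [h0 i hi, zero_mul]) (by simp)
  exact ⟨a, (h1 r).symm.trans h, h0, h1⟩

theorem norm2 {r : I → ℤ} (h : r ⬝ᵥ r = 2) : ∃ a b, a ≠ b ∧ r a * r a = 1 ∧ r b * r b = 1 ∧
    (∀ i, i ≠ a → i ≠ b → r i = 0) ∧ ∀ v, r ⬝ᵥ v = r a * v a + r b * v b := by
  obtain ⟨a, ha⟩ := ex_ne (h ▸ two_ne_zero : r ⬝ᵥ r ≠ 0)
  have h1 : r a * r a = 1 := by
    have := sq_le_dot r {a}
    rw [sum_singleton, h] at this
    have h2 : -2 < r a := by nlinarith
    have h3 : r a < 2 := by nlinarith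
    interval_cases r a <;> simp_all
  have e : ∀ v, r ⬝ᵥ v = r a * v a + Function.update r a 0 ⬝ᵥ v := fun v => by
    rw [dotProduct, dotProduct, ← add_sum_erase _ _ (mem_univ a), ← add_sum_erase _ _ (mem_univ a),
      Function.update_self, zero_mul, zero_add]
    exact congrArg _ (sum_congr rfl fun i hi => by rw [Function.update_of_ne (ne_of_mem_erase hi)])
  obtain ⟨b, hb, hb0, hb1⟩ := norm1 (r := Function.update r a 0) (by
    have h2 := e (Function.update r a 0)
    have h3 := e r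
    rw [Function.update_self, dotProduct_comm] at h2
    linarith)
  have hab : b ≠ a := by rintro rfl; simp at hb
  rw [Function.update_of_ne hab] at hb hb1
  exact ⟨a, b, hab.symm, h1, hb, fun i hi hi' => by
    simpa [Function.update_of_ne hi] using hb0 i hi', fun v => by rw [e, hb1]⟩

theorem pm {a : ℤ} (h : a * a = 1) : a = 1 ∨ a = -1 := Int.eq_one_or_neg_one_of_mul_eq_one h

theorem sq_eq {p q x y : ℤ} (hp : p * p = 1) (hq : q * q = 1) (h : p * x + q * y = 0) :
    x * x = y * y := by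
  linear_combination -(x * x) * hp + y * y * hq + (p * x - q * y) * h

theorem disj {r r' s : I → ℤ} (h : r ⬝ᵥ r = 2) (h' : r' ⬝ᵥ r' = 2) (h0 : r ⬝ᵥ r' = 0)
    (h1 : r ⬝ᵥ s = -1) (h2 : r' ⬝ᵥ s = 0) {i : I} (hi : r i ≠ 0) : r' i = 0 := by
  by_contra hi'
  obtain ⟨a, b, hab, ha, hb, hz, e⟩ := norm2 h
  obtain ⟨c, d, hcd, hc, hd, hz', e'⟩ := norm2 h'
  have u : ∀ j, r' j = 0 ∨ r' j = 1 ∨ r' j = -1 := fun j => by
    by_cases e1 : j = c
    · exact e1 ▸ Or.inr (pm hc)
    by_cases e2 : j = d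
    · exact e2 ▸ Or.inr (pm hd)
    · exact Or.inl (hz' j e1 e2)
  rw [e] at h0 h1
  have h3 : r' a ≠ 0 ∧ r' b ≠ 0 := by
    have : i = a ∨ i = b := by by_contra! e; exact hi (hz i e.1 e.2)
    rcases this with rfl | rfl <;> rcases pm ha with e1 | e1 <;> rcases pm hb with e2 | e2 <;>
      rw [e1, e2] at h0 <;> omega
  have h4 : r' ⬝ᵥ s = r' a * s a + r' b * s b := by
    have ha' : a = c ∨ a = d := by by_contra! e; exact h3.1 (hz' a e.1 e.2)
    have hb' : b = c ∨ b = d := by by_contra! e; exact h3.2 (hz' b e.1 e.2)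
    rcases ha' with rfl | rfl <;> rcases hb' with rfl | rfl
    · exact absurd rfl hab
    · exact e' s
    · rw [e' s, add_comm]
    · exact absurd rfl hab
  rw [h4] at h2
  rcases pm ha with e1 | e1 <;> rcases pm hb with e2 | e2 <;> rcases u a with e3 | e3 | e3 <;>
    rcases u b with e4 | e4 | e4 <;> rw [e1, e2] at h1 <;> rw [e3, e4] at h2 <;> omega

/-- the columns at the non-central elements -/
structure Col [DecidableEq T] (o : I) (D : T → I → ℤ) : Prop where
  gram : ∀ s t, D s ⬝ᵥ D t = if s = t then 9 else 0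
  one : ∀ t, D t o = 1
  cong : ∀ s t i, 3 ∣ D s i - D t i
  par : ∀ t, ∃ i ≠ o, ¬ 2 ∣ D t i

/-- support -/
def supp (r : I → ℤ) : Finset I := univ.filter (r · ≠ 0)

omit [DecidableEq I] in
theorem mem_supp {r : I → ℤ} {i : I} : i ∈ supp r ↔ r i ≠ 0 := by simp [supp]

namespace Col

variable [DecidableEq T] {o : I} {D : T → I → ℤ} (h : Col o D)
include h

theorem bd (t : T) (i : I) : -2 ≤ D t i ∧ D t i ≤ 2 := by
  by_cases e : i = o
  · rw [e, h.one]; omega
  have := sq_le_dot (D t) {i, o}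
  rw [sum_pair e, h.one, h.gram, if_pos rfl] at this
  constructor <;> nlinarith

theorem zero {s : T} (t : T) {i : I} (e : D s i = 0) : D t i = 0 := by
  have := h.bd t i
  have := h.cong s t i
  omega

theorem cnt (t : T) : (#(supp (D t)) = 9 ∧ ∀ i, D t i * D t i ≠ 4) ∨
    (#(supp (D t)) = 6 ∧ ∃! i, D t i * D t i = 4) := by
  have h1 : D t ⬝ᵥ D t = #(supp (D t)) + 3 * #{i | D t i * D t i = 4} := by
    rw [supp, card_filter, card_filter, dotProduct]
    push_cast
    rw [mul_sum, ← sum_add_distrib]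
    refine sum_congr rfl fun i _ => ?_
    obtain ⟨h1, h2⟩ := h.bd t i
    interval_cases D t i <;> simp
  rw [h.gram, if_pos rfl] at h1
  obtain ⟨j, hj, hj'⟩ := h.par t
  have h2 : #{i | D t i * D t i = 4} + 2 ≤ #(supp (D t)) := by
    rw [← card_pair hj, ← card_union_of_disjoint]
    · refine card_le_card fun i hi => mem_supp.2 fun e => ?_
      simp only [mem_union, mem_filter, mem_insert, mem_singleton] at hi
      rcases hi with hi | rfl | rfl
      · simp [e] at hi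
      · simp [e] at hj'
      · simp [h.one] at e
    · rw [disjoint_right]
      simp only [mem_insert, mem_singleton, mem_filter]
      rintro i (rfl | rfl) hi
      · obtain ⟨h1, h2⟩ := h.bd t i
        have := hi.2
        interval_cases D t i <;> simp_all
      · simp [h.one] at hi
  rcases (by omega : #{i | D t i * D t i = 4} = 0 ∨ #{i | D t i * D t i = 4} = 1) with e | e
  · exact Or.inl ⟨by omega, fun i hi => by
      rw [card_eq_zero, filter_eq_empty_iff] at e; exact e (mem_univ i) hi⟩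
  · obtain ⟨a, ha⟩ := card_eq_one.1 e
    have : ∀ i, D t i * D t i = 4 ↔ i = a := fun i => by simpa using congrArg (i ∈ ·) ha
    exact Or.inr ⟨by omega, a, (this a).2 rfl, fun i hi => (this i).1 hi⟩

theorem supp_eq (s t : T) : supp (D s) = supp (D t) := by
  ext i
  simp only [mem_supp]
  exact ⟨mt (h.zero s), mt (h.zero t)⟩

theorem eq_of {s t : T} (e : ∀ i, D s i * D s i = 4 ↔ D t i * D t i = 4) : s = t := by
  by_contra hn
  have h1 : D s = D t := funext fun i => by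
    obtain ⟨h1, h2⟩ := h.bd s i
    obtain ⟨h3, h4⟩ := h.bd t i
    have h5 := h.cong s t i
    have h6 := e i
    interval_cases D s i <;> interval_cases D t i <;> simp_all
  have h2 := h.gram s t
  rw [h1, h.gram, if_pos rfl, if_neg hn] at h2
  omega

theorem two {t : T} {s : I → ℤ} {a b : I} (ha : s a * s a = 1) (hb : s b * s b = 1)
    (e : s a * D t a + s b * D t b = 3) : (D t a * D t a = 4 ∧ s b = D t b ∧ D t a = 2 * s a) ∨
      (D t b * D t b = 4 ∧ s a = D t a ∧ D t b = 2 * s b) := by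
  obtain ⟨h1, h2⟩ := h.bd t a
  obtain ⟨h3, h4⟩ := h.bd t b
  rcases pm ha with e1 | e1 <;> rcases pm hb with e2 | e2 <;> rw [e1, e2] at e ⊢ <;>
    interval_cases D t a <;> interval_cases D t b <;> simp_all

theorem split {t : T} {r s : I → ℤ} (hs : s ⬝ᵥ s = 3) (hD : s ⬝ᵥ D t = 3) (hr : r ⬝ᵥ s = -1)
    (h0 : ∀ i, D t i ≠ 0 → r i = 0) : ∃ a e c, D t a * D t a = 4 ∧ D t a = 2 * s a ∧
      s e * s e = 1 ∧ s e = D t e ∧ D t c = 0 ∧ r c ≠ 0 ∧
      (∀ i, i ≠ a → i ≠ e → i ≠ c → s i = 0) ∧ ∀ v, s ⬝ᵥ v = s a * v a + s e * v e + s c * v c := by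
  let s1 : I → ℤ := fun i => if D t i = 0 then s i else 0
  let s2 : I → ℤ := fun i => if D t i = 0 then 0 else s i
  have e0 : s = s1 + s2 := funext fun i => by simp only [s1, s2, Pi.add_apply]; split_ifs <;> simp
  have e1 : s1 ⬝ᵥ s2 = 0 := sum_eq_zero fun i _ => by simp only [s1, s2]; split_ifs <;> simp
  have e2 : s1 ⬝ᵥ D t = 0 := sum_eq_zero fun i _ => by simp only [s1]; split_ifs <;> simp [*]
  have e3 : r ⬝ᵥ s2 = 0 := sum_eq_zero fun i _ => by
    simp only [s2]; split_ifs with e; exacts [mul_zero _, by rw [h0 i e, zero_mul]]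
  rw [e0] at hs hD hr
  rw [add_dotProduct, dotProduct_add, dotProduct_add, e1, dotProduct_comm s2, e1] at hs
  rw [add_dotProduct, e2, zero_add] at hD
  rw [dotProduct_add, e3, add_zero, dotProduct_comm] at hr
  obtain ⟨c, hc⟩ := ex_ne (hr ▸ by omega : s1 ⬝ᵥ r ≠ 0)
  obtain ⟨d, hd⟩ := ex_ne (hD ▸ by omega : s2 ⬝ᵥ D t ≠ 0)
  have n1 := (one_le_sq hc).trans ((sum_singleton _ c).ge.trans (sq_le_dot s1 {c}))
  have n2 := (one_le_sq hd).trans ((sum_singleton _ d).ge.trans (sq_le_dot s2 {d}))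
  have n3 : s2 ⬝ᵥ s2 ≠ 1 := fun e => by
    obtain ⟨a, ha, -, e⟩ := norm1 e
    have := h.bd t a
    rw [e] at hD
    rcases pm ha with e | e <;> rw [e] at hD <;> omega
  obtain ⟨c, hc, c0, c1⟩ := norm1 (r := s1) (by omega)
  obtain ⟨a, b, hab, ha, hb, z, e⟩ := norm2 (r := s2) (by omega)
  have k1 : ∀ i, s1 i * s1 i = 1 → D t i = 0 ∧ s1 i = s i := fun i hi => by
    by_cases e : D t i = 0
    · exact ⟨e, if_pos e⟩
    · rw [show s1 i = 0 from if_neg e] at hi; omega
  have k2 : ∀ i, s2 i * s2 i = 1 → s2 i = s i := fun i hi => by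
    by_cases e : D t i = 0
    · rw [show s2 i = 0 from if_pos e] at hi; omega
    · exact if_neg e
  have k3 : ∀ i, i ≠ a → i ≠ b → i ≠ c → s i = 0 := fun i h1 h2 h3 => by
    rw [e0, Pi.add_apply, c0 i h3, z i h1 h2, add_zero]
  have k4 : ∀ v, s ⬝ᵥ v = s a * v a + s b * v b + s c * v c := fun v => by
    rw [← k2 a ha, ← k2 b hb, ← (k1 c hc).2, ← e, ← c1, add_comm, ← add_dotProduct, ← e0]
  have k5 : r c ≠ 0 := fun e => by rw [c1, e] at hr; omega
  rw [e, k2 a ha, k2 b hb] at hD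
  rw [k2 a ha] at ha
  rw [k2 b hb] at hb
  rcases h.two ha hb hD with ⟨h1, h2, h3⟩ | ⟨h1, h2, h3⟩
  · exact ⟨a, b, c, h1, h3, hb, h2, (k1 c hc).1, k5, k3, k4⟩
  · exact ⟨b, a, c, h1, h3, ha, h2, (k1 c hc).1, k5, fun i h1 h2 => k3 i h2 h1, fun v => by
      rw [k4, add_comm (s a * v a)]⟩

variable [Fintype T] [Fintype J] [DecidableEq J]

theorem core (t : T) {R S : J → I → ℤ} (hR : ∀ j k, R j ⬝ᵥ R k = if j = k then 2 else 0)
    (hS : ∀ j k, S j ⬝ᵥ S k = if j = k then 3 else 1)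
    (hRS : ∀ j k, R j ⬝ᵥ S k = if j = k then -1 else 0) (hRD : ∀ j s, R j ⬝ᵥ D s = 0)
    (hSD : ∀ j s, S j ⬝ᵥ D s = if s = t then 3 else 0)
    (hc : Fintype.card T + Fintype.card J = 6)
    (cov : ∀ i, D t i = 0 → ∃ j, R j i ≠ 0 ∨ S j i ≠ 0) :
    #(supp (D t)) = 6 ∧ Fintype.card I = 6 + 2 * Fintype.card J := by
  have r2 : ∀ j, R j ⬝ᵥ R j = 2 := fun j => by simp [hR]
  have rs : ∀ j, R j ⬝ᵥ S j = -1 := fun j => by simp [hRS]
  have dj : ∀ j k i, j ≠ k → R j i ≠ 0 → R k i = 0 := fun j k i e hi =>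
    disj (r2 j) (r2 k) (by simp [hR, e]) (rs j) (by simp [hRS, e.symm]) hi
  choose α β hne hα hβ hz hv using fun j => norm2 (r2 j)
  have ne0 : ∀ {x : ℤ}, x * x = 1 → x ≠ 0 := fun h e => by simp [e] at h
  have cardU : #(univ.biUnion fun j => supp (R j)) = 2 * Fintype.card J := by
    rw [card_biUnion fun j _ k _ e => disjoint_left.2 fun i h1 h2 =>
      mem_supp.1 h2 (dj j k i e (mem_supp.1 h1)), sum_const_nat (m := 2), card_univ, mul_comm]
    intro j _
    rw [← card_pair (hne j)]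
    congr 1
    ext i
    simp only [mem_supp, mem_insert, mem_singleton]
    exact ⟨fun hi => by by_contra! e; exact hi (hz j i e.1 e.2),
      by rintro (rfl | rfl); exacts [ne0 (hα j), ne0 (hβ j)]⟩
  have sp := fun j => h.split (t := t) (r := R j) (s := S j) (by simp [hS]) (by simp [hSD]) (rs j)
  have sq : ∀ j s, D s (α j) * D s (α j) = D s (β j) * D s (β j) := fun j s =>
    sq_eq (hα j) (hβ j) ((hv j _).symm.trans (hRD j s))
  have on : ∀ j, ¬ (∀ i, D t i ≠ 0 → R j i = 0) → D t (α j) ≠ 0 ∧ D t (β j) ≠ 0 := fun j hj => by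
    have := sq j t
    by_contra e
    have e1 : D t (α j) = 0 ∧ D t (β j) = 0 := by
      rcases not_and_or.1 e with e | e <;> rw [not_not.1 e] at this ⊢ <;> simpa using this
    exact hj fun i hi => hz j i (by rintro rfl; exact hi e1.1) (by rintro rfl; exact hi e1.2)
  obtain ⟨h9, h4⟩ | ⟨h6, -⟩ := h.cnt t
  · exfalso
    have h1 : Fintype.card T = 1 := Fintype.card_eq_one_iff.2 ⟨t, fun s => h.eq_of fun i => by
      have := (h.cnt s).resolve_right fun e => by rw [h.supp_eq s t] at e; omega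
      simp [h4, this.2]⟩
    have h2 := card_le_card (s := univ.biUnion fun j => supp (R j)) (t := supp (D t))
      (biUnion_subset.2 fun j _ i hi => mem_supp.2 (by
        have h3 := on j fun e => by obtain ⟨a, -, -, ha, -⟩ := sp j e; exact h4 a ha
        have : i = α j ∨ i = β j := by by_contra! e; exact mem_supp.1 hi (hz j i e.1 e.2)
        rcases this with rfl | rfl; exacts [h3.1, h3.2]))
    omega
  refine ⟨h6, ?_⟩
  choose a ha ha' using fun s => ((h.cnt s).resolve_left fun e => by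
    rw [h.supp_eq s t] at e; omega).2
  have ainj : Function.Injective a := fun s s' e => h.eq_of fun i =>
    ⟨fun h1 => by rw [ha' s i h1, e]; exact ha s', fun h1 => by rw [ha' s' i h1, ← e]; exact ha s⟩
  have cH : #(supp (D t) \ univ.image a) = Fintype.card J := by
    rw [card_sdiff_of_subset (fun i hi => by
      obtain ⟨s, -, rfl⟩ := mem_image.1 hi
      exact mem_supp.2 fun e => by have := ha s; simp [h.zero s e] at this),
      card_image_of_injective _ ainj, card_univ]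
    omega
  have all : ∀ j i, D t i ≠ 0 → R j i = 0 := by
    by_contra! hx
    obtain ⟨j0, hj0⟩ := hx
    have hj0 : ¬ ∀ i, D t i ≠ 0 → R j0 i = 0 := by push Not; exact hj0
    have nb : ∀ j s, α j ≠ a s ∧ β j ≠ a s := fun j s =>
      ⟨fun e => hne j (e.trans (ha' s _ ((sq j s).symm.trans (e ▸ ha s))).symm),
        fun e => hne j ((ha' s _ ((sq j s).trans (e ▸ ha s))).trans e.symm)⟩
    have key : ∀ j, ∃ e, e ∈ supp (D t) \ univ.image a ∧ ((R j e ≠ 0 ∧ e ≠ β j) ∨
        ((∀ k, R k e = 0) ∧ S j e = D t e ∧ D t (a t) = 2 * S j (a t) ∧ ∃ c, R j c ≠ 0 ∧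
          D t c = 0 ∧ (∀ i, D t i ≠ 0 → R j i = 0) ∧ S j e * S j e = 1 ∧
          ∀ v, S j ⬝ᵥ v = S j (a t) * v (a t) + S j e * v e + S j c * v c)) := fun j => by
      by_cases hj : ∀ i, D t i ≠ 0 → R j i = 0
      · obtain ⟨a', e, c, h1, h2, h3, h4, h5, h6, h7, h8⟩ := sp j hj
        obtain rfl := ha' t a' h1
        have he : D t e ≠ 0 := h4 ▸ ne0 h3
        refine ⟨e, mem_sdiff.2 ⟨mem_supp.2 he, fun hm => ?_⟩,
          Or.inr ⟨fun k => ?_, h4, h2, c, h6, h5, hj, h3, h8⟩⟩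
        · obtain ⟨s, -, rfl⟩ := mem_image.1 hm
          have h9 : D s (a s) * D s (a s) = 4 := ha s
          by_cases e : s = t
          · subst e; rw [← h4] at h9; omega
          have h10 := hSD j s
          have h11 : D s (a t) * D s (a t) ≠ 4 := fun e' => e (ainj (ha' s _ e').symm)
          rw [if_neg e, h8, h.zero s h5] at h10
          have h12 : S j (a t) * S j (a t) = 1 := by rw [h2] at h1; linarith
          exact h11 ((sq_eq h12 h3 (by linarith)).trans h9)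
        · by_cases hk : ∀ i, D t i ≠ 0 → R k i = 0
          · exact hk e he
          have h9 := hRS k j
          rw [if_neg (by rintro rfl; exact hk hj), dotProduct_comm, h8,
            hz k (a t) (nb k t).1.symm (nb k t).2.symm, hz k c
              (by rintro rfl; exact (on k hk).1 h5) (by rintro rfl; exact (on k hk).2 h5)] at h9
          simpa [ne0 h3] using h9
      · exact ⟨α j, mem_sdiff.2 ⟨mem_supp.2 (on j hj).1, fun hm => by
          obtain ⟨s, -, e⟩ := mem_image.1 hm; exact (nb j s).1 e.symm⟩, Or.inl ⟨ne0 (hα j), hne j⟩⟩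
    choose f hf hf' using key
    have finj : Function.Injective f := fun j k e => by
      by_contra hn
      rcases hf' j with h1 | h1 <;> rcases hf' k with h2 | h2
      · exact h2.1 (dj j k _ hn (e ▸ h1.1))
      · exact h1.1 (e ▸ h2.1 j)
      · exact h2.1 (e ▸ h1.1 k)
      obtain ⟨-, p1, p2, c, p3, p4, p5, p6, p7⟩ := h1
      obtain ⟨-, q1, q2, d, q3, q4, q5, q6, q7⟩ := h2
      have h3 := hS j k
      have h4 := hRS j k
      have h5 : S k c = 0 := by
        have h6 := q7 (Pi.single c 1)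
        have n1 : a t ≠ c := by rintro rfl; have := ha t; simp [p4] at this
        have n2 : f k ≠ c := by rintro rfl; rw [p4] at q1; exact ne0 q6 q1
        have n3 : d ≠ c := by rintro rfl; exact q3 (dj j k _ hn p3)
        simpa [n1, n2, n3] using h6
      have h6 : D t (a t) * D t (a t) = 4 := ha t
      rw [if_neg hn, p7, h5, p1, e, q1] at h3
      rw [q1] at q6
      have h7 : S j (a t) = S k (a t) := by omega
      rw [q2] at h6
      rw [h7] at h3
      linarith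
    have h1 := card_le_card (s := insert (β j0) (univ.image f)) (t := supp (D t) \ univ.image a)
      (insert_subset (mem_sdiff.2 ⟨mem_supp.2 (on j0 hj0).2, fun hm => by
        obtain ⟨s, -, e⟩ := mem_image.1 hm; exact (nb j0 s).2 e.symm⟩) fun i hi => by
        obtain ⟨j, -, rfl⟩ := mem_image.1 hi; exact hf j)
    rw [card_insert_of_notMem, card_image_of_injective _ finj, card_univ] at h1
    · omega
    intro hm
    obtain ⟨j, -, e⟩ := mem_image.1 hm
    rcases hf' j with h2 | h2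
    · by_cases e' : j = j0
      · exact h2.2 (e' ▸ e)
      · exact ne0 (hβ j0) (dj j j0 _ e' (e ▸ h2.1))
    · exact ne0 (hβ j0) (e ▸ h2.1 j0)
  have e : (supp (D t))ᶜ = univ.biUnion fun j => supp (R j) := by
    ext i
    simp only [mem_compl, mem_biUnion, mem_univ, true_and, mem_supp, not_not]
    refine ⟨fun hi => ?_, fun ⟨j, hj⟩ => by by_contra e; exact hj (all j i e)⟩
    obtain ⟨j, hj | hj⟩ := cov i hi
    · exact ⟨j, hj⟩
    obtain ⟨a', e, c, h1, -, h3, h4, -, h6, h7, -⟩ := sp j (all j)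
    refine ⟨j, ?_⟩
    by_contra! h8
    exact hj (h7 i (by rintro rfl; simp [hi] at h1) (by rintro rfl; exact ne0 h3 (h4.trans hi))
      (by rintro rfl; exact h6 h8))
  rw [← card_add_card_compl (supp (D t)), e, cardU, h6]

theorem red (t : T) (X : I → ℤ) (a : T → ℤ) (hX : ∀ s, X ⬝ᵥ D s = 3 * a s) :
    ∃ (ε : ℤ) (Y : I → ℤ), (ε = 0 ∨ ε * ε = 1) ∧ 3 ∣ ε - ∑ s, a s ∧
      (3 : ℤ) • Y = (3 : ℤ) • X - ∑ s, a s • D s + ε • D t ∧
      ∀ s, Y ⬝ᵥ D s = if s = t then 3 * ε else 0 := by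
  obtain ⟨ε, h1, h2⟩ : ∃ ε : ℤ, (ε = 0 ∨ ε * ε = 1) ∧ 3 ∣ ε - ∑ s, a s := by
    rcases (by omega : 3 ∣ 0 - ∑ s, a s ∨ 3 ∣ 1 - ∑ s, a s ∨ 3 ∣ -1 - ∑ s, a s) with e | e | e
    exacts [⟨_, by simp, e⟩, ⟨_, by simp, e⟩, ⟨_, by simp, e⟩]
  have h3 : ∀ i, ∃ y, ((3 : ℤ) • X - ∑ s, a s • D s + ε • D t) i = 3 * y := fun i => by
    have : ((3 : ℤ) • X - ∑ s, a s • D s + ε • D t) i =
        3 * X i + (ε - ∑ s, a s) * D t i + ∑ s, a s * (D t i - D s i) := by
      simp [mul_sub, sum_sub_distrib, sub_mul, sum_mul]; ring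
    rw [this]
    exact ((dvd_mul_right _ _).add (h2.mul_right _)).add
      (dvd_sum fun s _ => (h.cong t s i).mul_left _)
  choose Y hY using h3
  have h4 : (3 : ℤ) • Y = (3 : ℤ) • X - ∑ s, a s • D s + ε • D t := funext fun i => (hY i).symm
  refine ⟨ε, Y, h1, h2, h4, fun s => ?_⟩
  have := congrArg (· ⬝ᵥ D s) h4
  simp only [smul_dotProduct, add_dotProduct, sub_dotProduct, sum_dotProduct, h.gram, hX,
    smul_eq_mul, mul_ite, mul_zero, sum_ite_eq', mem_univ, if_true] at this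
  split_ifs at this ⊢ <;> first | omega | simp_all

theorem red_dot {t : T} {X X' Y Y' : I → ℤ} {a a' : T → ℤ} {ε ε' : ℤ}
    (hX : ∀ s, X ⬝ᵥ D s = 3 * a s) (hX' : ∀ s, X' ⬝ᵥ D s = 3 * a' s)
    (hY : (3 : ℤ) • Y = (3 : ℤ) • X - ∑ s, a s • D s + ε • D t)
    (hY' : (3 : ℤ) • Y' = (3 : ℤ) • X' - ∑ s, a' s • D s + ε' • D t)
    (hD : ∀ s, Y ⬝ᵥ D s = if s = t then 3 * ε else 0) :
    Y ⬝ᵥ Y' = X ⬝ᵥ X' - ∑ s, a s * a' s + ε * ε' := by
  have h1 := congrArg (Y ⬝ᵥ ·) hY'
  have h2 := congrArg (X' ⬝ᵥ ·) hY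
  simp only [dotProduct_smul, dotProduct_add, dotProduct_sub, dotProduct_sum, hD, hX',
    smul_eq_mul, mul_ite, mul_zero, sum_ite_eq', mem_univ, if_true] at h1 h2
  have h3 : ∑ s, a s * (3 * a' s) = 3 * ∑ s, a s * a' s := by
    rw [mul_sum]; exact sum_congr rfl fun _ _ => by ring
  rw [dotProduct_comm X', dotProduct_comm X', h3] at h2
  nlinarith

theorem loc (t : T) {y : I → ℤ} {a : T → ℤ} (hy : ∀ s, y ⬝ᵥ D s = 3 * a s)
    (hn : y ⬝ᵥ y = 1 + ∑ s, a s * a s) (h0 : ∀ i, D t i = 0 → y i = 0) :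
    ¬ 3 ∣ ∑ s, a s ∧ #(supp (D t)) = 6 := by
  obtain ⟨ε, Y, h1, h2, h3, h4⟩ := h.red t y a hy
  have h5 := h.red_dot hy hy h3 h3 h4
  have h6 := h4 t
  rw [if_pos rfl] at h6
  rcases h1 with rfl | h1
  · obtain ⟨c, hc, -, e⟩ := norm1 (r := Y) (by omega)
    have h7 := congrFun h3 c
    have h8 : D t c = 0 := by
      rw [e] at h6; rcases pm hc with e | e <;> rw [e] at h6 <;> omega
    simp only [Pi.smul_apply, Pi.add_apply, Pi.sub_apply, Finset.sum_apply, h.zero _ h8, h0 c h8,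
      mul_zero, sum_const_zero, smul_eq_mul] at h7
    rcases pm hc with e | e <;> omega
  · refine ⟨by rcases pm h1 with e | e <;> omega, ((h.cnt t).resolve_left fun h7 => ?_).1⟩
    obtain ⟨c, d, -, hc, hd, -, e⟩ := norm2 (r := Y) (by omega)
    have b1 : ∀ i, -1 ≤ D t i ∧ D t i ≤ 1 := fun i => by
      have h8 := h7.2 i
      obtain ⟨_, _⟩ := h.bd t i
      interval_cases D t i <;> omega
    have := b1 c
    have := b1 d
    rw [e] at h6
    rcases pm hc with e1 | e1 <;> rcases pm hd with e2 | e2 <;> rcases pm h1 with e3 | e3 <;>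
      rw [e1, e2, e3] at h6 <;> omega

theorem lat (t : T) {R X : J → I → ℤ} {a : J → T → ℤ} (hX : ∀ j s, X j ⬝ᵥ D s = 3 * a j s)
    (hXX : ∀ j k, X j ⬝ᵥ X k = (if j = k then 2 else 0) + ∑ s, a j s * a k s)
    (h3 : ∀ j, ¬ 3 ∣ ∑ s, a j s) (hR : ∀ j k, R j ⬝ᵥ R k = if j = k then 2 else 0)
    (hRX : ∀ j k, R j ⬝ᵥ X k = if j = k then -1 else 0) (hRD : ∀ j s, R j ⬝ᵥ D s = 0)
    (hc : Fintype.card T + Fintype.card J = 6)
    (cov : ∀ i, D t i = 0 → ∃ j, R j i ≠ 0 ∨ X j i ≠ 0) :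
    #(supp (D t)) = 6 ∧ Fintype.card I = 6 + 2 * Fintype.card J := by
  choose ε Y h1 h2 h4 h5 using fun j => h.red t (X j) (a j) (hX j)
  have h6 : ∀ j, ε j * ε j = 1 := fun j => (h1 j).resolve_left fun e => h3 j (by
    have := h2 j; rw [e] at this; omega)
  have h7 : ∀ j k, R j ⬝ᵥ Y k = R j ⬝ᵥ X k := fun j k => by
    have := congrArg (R j ⬝ᵥ ·) (h4 k)
    simp only [dotProduct_smul, dotProduct_add, dotProduct_sub, dotProduct_sum, hRD,
      smul_eq_mul, mul_zero, sum_const_zero] at this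
    omega
  refine h.core t (R := fun j => ε j • R j) (S := fun j => ε j • Y j) (fun j k => ?_)
    (fun j k => ?_) (fun j k => ?_) (fun j s => ?_) (fun j s => ?_) hc fun i hi => ?_
  · rw [smul_dotProduct, dotProduct_smul, hR]
    split_ifs with e
    · subst e; have := h6 j; simp only [smul_eq_mul]; linarith
    · simp
  · rw [smul_dotProduct, dotProduct_smul, h.red_dot (hX j) (hX k) (h4 j) (h4 k) (h5 j), hXX]
    have e1 := h6 j
    have e2 := h6 k
    simp only [smul_eq_mul]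
    split_ifs with e
    · subst e; linear_combination (2 + ε j * ε j + 1) * e1
    · linear_combination (ε k * ε k) * e1 + e2
  · rw [smul_dotProduct, dotProduct_smul, h7, hRX]
    split_ifs with e
    · subst e; have := h6 j; simp only [smul_eq_mul]; linarith
    · simp
  · rw [smul_dotProduct, hRD, smul_zero]
  · rw [smul_dotProduct, h5]
    have := h6 j
    split_ifs
    · simp only [smul_eq_mul]; linarith
    · simp
  · obtain ⟨j, hj⟩ := cov i hi
    have h8 := congrFun (h4 j) i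
    have h9 : ε j ≠ 0 := fun e => by have := h6 j; simp [e] at this
    simp only [Pi.smul_apply, Pi.add_apply, Pi.sub_apply, Finset.sum_apply, h.zero _ hi,
      mul_zero, sum_const_zero, smul_eq_mul] at h8
    have h10 : Y j i = X j i := by omega
    exact ⟨j, hj.imp (mul_ne_zero h9) fun e => mul_ne_zero h9 (h10 ▸ e)⟩

end Col

end Cfsg.Agent.XS3
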