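import Mathlib
import Cfsg.Agent.XS3.Lat
import Cfsg.Agent.XS3.Grp
import Cfsg.Agent.TrP.Blk
import Cfsg.Agent.Block.BSLocal
import Cfsg.Agent.Block.Columns
import Cfsg.Agent.Block.IBrBlock
import Cfsg.Agent.Block.PrincipalPow
import Cfsg.Agent.Block.Height

/-! The principal `3`-block of a group with an extraspecial Sylow subgroup of order 27 whose
normaliser fixes its centre: columns and the isometry with the centraliser of the centre. -/

set_option autoImplicit false
set_option linter.unusedSectionVars false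

namespace Cfsg.Agent.XS3

open Subgroup Cfsg Cfsg.Agent.PLocal.Amb Cfsg.Agent.Block Cfsg.Agent.Char
open scoped ComplexConjugate

variable {G : Type*} [Group G] [Fintype G] {M : Ideal AlgInt}

theorem fs {β : Type*} [AddCommMonoid β] (A : Set (IrrCharacter G)) [Fintype A]
    (f : IrrCharacter G → β) : ∑ᶠ χ ∈ A, f χ = ∑ χ : A, f χ := by
  rw [← finsum_set_coe_eq_finsum_mem, finsum_eq_sum_of_fintype]

theorem dot_cast {I : Type*} [Fintype I] {v w : I → ℤ} {f g : I → ℂ} (hf : ∀ i, f i = v i)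
    (hg : ∀ i, g i = w i) : ∑ i, f i * conj (g i) = ((v ⬝ᵥ w : ℤ) : ℂ) := by
  simp [dotProduct, hf, hg]

/-- the kernel of the principal block -/
noncomputable def K (M : Ideal AlgInt) (g h : G) : ℂ :=
  ∑ᶠ χ ∈ principalBlock M G, (χ : G → ℂ) g * conj ((χ : G → ℂ) h)

open Classical in
/-- point mass -/
noncomputable def dl (h : G) : G → ℂ := fun g => if g = h then Nat.card G else 0

theorem inner_dl (φ : G → ℂ) (h : G) : classInner φ (dl h) = φ h := by
  have := card_ne_zero G
  rw [classInner_def, Finset.sum_eq_single h (fun g _ e => by simp [dl, e]) (by simp), dl,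
    if_pos rfl, map_natCast]
  field_simp

theorem dl_inner (φ : G → ℂ) (h : G) : classInner (dl h) φ = conj (φ h) := by
  rw [← classInner_conj_symm, inner_dl]

theorem part_dl (g h : G) : blockPart (principalBlock M G) (dl h) g = K M g h := by
  simp only [blockPart_apply, dl_inner, K, mul_comm]

theorem dl_reg {g h : G} (hh : orderOf h = 3) (hg : ¬ 3 ∣ orderOf g) : dl h g = 0 :=
  if_neg (by rintro rfl; exact hg (hh ▸ dvd_rfl))

theorem K_zero (hM : IsPModular 3 M) {g h : G} (e : ¬ IsConj (pPart 3 g) (pPart 3 h)) :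
    K M g h = 0 :=
  sum_mul_conj_eq_zero_of_val hM (val_blockCoeff_principal_le_one hM) e

theorem K_sec (hM : IsPModular 3 M) {x : G} (hx : ∃ k, orderOf x = 3 ^ k) {C : Subgroup G}
    (hC : centralizer {x} = C) {y y' : C} (hy : ¬ 3 ∣ orderOf y) (hy' : ¬ 3 ∣ orderOf y') :
    K M (x * y) (x * y') = K M y y' := by
  subst hC; exact sum_principal_section hM hx hy hy'

theorem K_cen {x : G} (hx : x ∈ center G) (y y' : G) : K M (x * y) (x * y') = K M y y' :=
  finsum_mem_congr rfl fun χ _ => by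
    rw [apply_center_mul χ.2 hx, apply_center_mul χ.2 hx, map_mul, mul_mul_mul_comm,
      cen_mul_conj χ.2 hx, one_mul]

theorem sum_inner {I : Type*} [Fintype I] (φ : I → G → ℂ) (x x' : G → ℂ) :
    ∑ i, classInner x (φ i) * conj (classInner x' (φ i)) = (Nat.card G : ℂ)⁻¹ * (Nat.card G : ℂ)⁻¹ *
      ∑ g, ∑ h, x g * conj (x' h) * ∑ i, φ i h * conj (φ i g) := by
  have : ∀ i, classInner x (φ i) * conj (classInner x' (φ i)) = (Nat.card G : ℂ)⁻¹ *
      (Nat.card G : ℂ)⁻¹ * ∑ g, ∑ h, x g * conj (x' h) * (φ i h * conj (φ i g)) := fun i => by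
    rw [classInner_conj_symm, classInner_def, classInner_def, mul_mul_mul_comm, Finset.sum_mul_sum]
    congr 1
    exact Finset.sum_congr rfl fun g _ => Finset.sum_congr rfl fun h _ => by ring
  rw [Finset.sum_congr rfl fun i _ => this i, ← Finset.mul_sum, Finset.sum_comm]
  congr 1
  refine Finset.sum_congr rfl fun g _ => ?_
  rw [Finset.sum_comm]
  simp only [Finset.mul_sum]

theorem pp {a : G} (h : orderOf a = 3) : pPart 3 a = a := pPart_eq_self_iff.2 ⟨1, h⟩

theorem height_iff (hM : IsPModular 3 M) (χ : IrrCharacter G) :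
    blockHeight 3 (principalBlock M G) χ = 0 ↔ ¬ 3 ∣ charDegree (χ : G → ℂ) := by
  rw [blockHeight_eq_zero_iff ⟨_, irrOne_mem_principal hM⟩,
    Nat.prime_three.dvd_iff_one_le_factorization (charDegree_ne_zero χ.2)]
  refine ⟨fun h => ?_, fun h ψ _ => by omega⟩
  have := h _ (irrOne_mem_principal hM)
  rw [charDegree_irrOne, Nat.factorization_one] at this
  simpa using this

namespace XS

variable {P : Subgroup G} {z : G} {T : Type*} {u : T → G} (h : XS P z)
include h

theorem isoZ {w g : G} (hw : w ∈ zpowers z) (hg : g * w * g⁻¹ ∈ P) : g * w * g⁻¹ = w := by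
  rcases (mem_zp h.ord).1 hw with rfl | rfl | rfl
  · simp
  · exact h.iso hg
  · rw [← conj_inv, h.iso (g := g) (by simpa [mul_assoc] using inv_mem hg)]

theorem nidx : ¬ 3 ∣ P.index := by simpa using h.syl.not_dvd_relIndex

variable (r : Reps P z u)
include r

theorem cls2 (g : G) : (∃ w ∈ zpowers z, IsConj (pPart 3 g) w) ∨ ∃ t, IsConj (pPart 3 g) (u t) := by
  rcases h.cls r (orderOf_pPart 3 g) with e | e | e | e
  · exact Or.inl ⟨1, one_mem _, e ▸ IsConj.refl _⟩
  · exact Or.inl ⟨z, mem_zpowers z, e⟩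
  · exact Or.inl ⟨_, inv_mem (mem_zpowers z), e⟩
  · exact Or.inr e

theorem cls3 (hz : z ∈ center G) (g : G) :
    pPart 3 g ∈ zpowers z ∨ ∃ t, IsConj (pPart 3 g) (u t) := by
  refine (h.cls2 r g).imp_left fun ⟨w, hw, e⟩ => ?_
  obtain ⟨c, hc⟩ := isConj_iff.1 e.symm
  rwa [← hc, mem_center_iff.1 (zpowers_le.2 hz hw) c, mul_inv_cancel_right]

variable (hM : IsPModular 3 M)
include hM

theorem val_u {χ : IrrCharacter G} (hχ : χ ∈ principalBlock M G) {g : G} {t : T}
    (e : IsConj (pPart 3 g) (u t)) : (χ : G → ℂ) g = (χ : G → ℂ) (u t) := by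
  obtain ⟨c, hc⟩ := isConj_iff.1 e
  rw [← pPart_conj] at hc
  rw [← χ.2.isClassFunction g c, TrP.apply_eq_pPart hM (hc ▸ h.nil (r.mem t) (r.nmem t)) hχ, hc]

theorem K_u {g k : G} {t : T} (e : IsConj (pPart 3 g) (u t)) (e' : IsConj (pPart 3 k) (u t)) :
    K M g k = 9 := by
  rw [K, finsum_mem_congr rfl fun χ hχ => by rw [h.val_u r hM hχ e, h.val_u r hM hχ e'],
    kernel_principal hM ⟨1, h.ordu r t⟩ ⟨1, h.ordu r t⟩, if_pos (IsConj.refl _),
    lamB_of_hasNormalPComplement hM (h.nil (r.mem t) (r.nmem t)), h.fac (r.mem t) (r.nmem t)]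
  rfl

theorem K_uu [DecidableEq T] {g : G} {s : T} (e : IsConj (pPart 3 g) (u s)) (t : T) :
    K M g (u t) = if s = t then 9 else 0 := by
  split_ifs with e'
  · exact h.K_u r hM e (by rw [pp (h.ordu r t), e'])
  · exact K_zero hM fun e2 => e' (r.inj _ _ (e.symm.trans (pp (h.ordu r t) ▸ e2)))

theorem K_zu {g : G} (e : pPart 3 g ∈ zpowers z) (t : T) : K M g (u t) = 0 :=
  K_zero hM fun e2 => h.nconj r e t (pp (h.ordu r t) ▸ e2.symm)

theorem card_eq [Fintype T] : Nat.card (principalBlock M G) =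
    blockRank 3 (principalBlock M G) + 2 * lAt 3 M z + Fintype.card T := by
  classical
  let ρ : T ⊕ Fin 3 → G := Sum.elim u fun i => z ^ (i : ℕ)
  have hz : ∀ i : Fin 3, z ^ (i : ℕ) ∈ zpowers z := fun i => pow_mem (mem_zpowers z) _
  have inj : ∀ i j, IsConj (ρ i) (ρ j) → i = j := by
    rintro (s | i) (t | j) e
    · rw [r.inj s t e]
    · exact absurd e (h.nconj r (hz j) s)
    · exact absurd e.symm (h.nconj r (hz i) t)
    · obtain ⟨c, hc⟩ := isConj_iff.1 e
      rw [Fin.ext (pow_injOn_Iio_orderOf (x := z) (by simp [h.ord]) (by simp [h.ord])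
        ((h.isoZ (hz i) (hc ▸ h.zle (hz j))).symm.trans hc))]
  have e2 : z ^ 2 = z⁻¹ := eq_inv_of_mul_eq_one_left (by rw [← pow_succ, h.exp z h.mem])
  have hρ : ∀ i, ∃ k, orderOf (ρ i) = 3 ^ k := by
    rintro (s | i)
    exacts [⟨1, h.ordu r s⟩, orderOf_eq_pow_of_mem h.syl.pgrp (h.zle (hz i))]
  rw [card_block_eq_sum_indSet (X := Finset.univ.image ρ) hM isPBlock_principal (fun x hx => by
      obtain ⟨i, -, rfl⟩ := Finset.mem_image.1 hx; exact hρ i) (fun g hg => by
      obtain ⟨i, hi⟩ : ∃ i, IsConj g (ρ i) := by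
        rcases h.cls r hg with e | e | e | ⟨t, e⟩
        exacts [⟨.inr 0, by simp [ρ, e]⟩, ⟨.inr 1, by simpa [ρ] using e⟩,
          ⟨.inr 2, by rw [← e2] at e; exact e⟩, ⟨.inl t, e⟩]
      refine ⟨ρ i, ⟨by simp, hi⟩, fun y hy => ?_⟩
      obtain ⟨j, -, rfl⟩ := Finset.mem_image.1 hy.1
      rw [inj _ _ (hy.2.symm.trans hi)]),
    Finset.sum_image fun i _ j _ e => inj i j (by rw [show ρ i = ρ j from e]),
    Finset.sum_congr rfl fun i _ => congrArg _ (indSet_principal hM (hρ i)), Fintype.sum_sum_type,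
    Fin.sum_univ_three]
  change ∑ t, lAt 3 M (u t) + (lAt 3 M (z ^ 0) + lAt 3 M (z ^ 1) + lAt 3 M (z ^ 2)) = _
  have e3 : lAt 3 M z⁻¹ = lAt 3 M z := by
    rw [lAt, ← PLocal.Amb.centralizer_zpowers, zpowers_inv, PLocal.Amb.centralizer_zpowers]
  rw [pow_zero, pow_one, e2, e3, lAt_one hM, Finset.sum_congr rfl fun t _ =>
    (blockRank_principal_eq_one_iff hM).2 (h.nil (r.mem t) (r.nmem t))]
  simp
  omega

omit hM in
theorem int_u {t : T} (hr : IsConj (u t) (u t)⁻¹) {θ : G → ℂ} (hθ : IsGeneralizedCharacter G θ) :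
    ∃ d : ℤ, θ (u t) = d :=
  hθ.exists_int_of_isConj _ fun m hm => by
    have h4 : (3 : ℕ).Coprime m := (hm.coprime_dvd_right (h.ordu r t ▸ orderOf_dvd_natCard _)).symm
    rw [← pow_mod_orderOf, h.ordu r t]
    rw [Nat.prime_three.coprime_iff_not_dvd] at h4
    obtain e | e : m % 3 = 1 ∨ m % 3 = 2 := by omega
    · rw [e, pow_one]
    · rwa [e, show u t ^ 2 = (u t)⁻¹ from eq_inv_of_mul_eq_one_left
        (by rw [← pow_succ, h.exp _ (r.mem t)])]

theorem col [DecidableEq T] [Fintype (principalBlock M G)] [DecidableEq (principalBlock M G)]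
    (hr : ∀ t, IsConj (u t) (u t)⁻¹) : ∃ D : T → principalBlock M G → ℤ,
      (∀ t χ, (χ.1 : G → ℂ) (u t) = D t χ) ∧ Col ⟨_, irrOne_mem_principal hM⟩ D ∧
      ∀ t χ, D t χ ≠ 0 ↔ ¬ 3 ∣ charDegree (χ.1 : G → ℂ) := by
  choose D hD using fun t (χ : principalBlock M G) => h.int_u r (hr t) χ.1.2.isGen
  have h2 : ∀ t χ, 3 ∣ D t χ - charDegree (χ.1 : G → ℂ) := fun t χ => by
    have := val_char_sub_pReg_lt_one hM χ.1.2.isCharacter (u t)
    rw [pReg_eq_one_iff.2 ⟨1, h.ordu r t⟩, hD, ← coe_charDegree_irr] at this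
    exact (val_intCast_lt_one_iff hM _).1 (by push_cast; exact this)
  have h4 : ∀ t, D t ⟨_, irrOne_mem_principal hM⟩ = 1 := fun t =>
    Int.cast_injective (α := ℂ) (by rw [← hD]; simp)
  have hc : Col ⟨_, irrOne_mem_principal hM⟩ D := by
    refine ⟨fun s t => ?_, h4, fun s t i => by
      have := h2 s i; have := h2 t i; omega, fun t => ?_⟩
    · have := h.K_uu r hM (by rw [pp (h.ordu r s)]) t
      rw [K, fs, dot_cast (hD s) (hD t)] at this
      exact_mod_cast this
    · by_contra! e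
      have := K_zero hM (g := u t) (h := 1) fun e => h.nconj r (one_mem _) t (by
        rwa [pp (h.ordu r t), pPart_one] at e)
      rw [K, fs, dot_cast (hD t) (w := fun χ => charDegree (χ.1 : G → ℂ))
        fun χ => (coe_charDegree_irr _).symm, Int.cast_eq_zero, dotProduct,
        ← Finset.add_sum_erase _ _ (Finset.mem_univ ⟨_, irrOne_mem_principal hM⟩),
        charDegree_irrOne] at this
      have h3 := Finset.dvd_sum (s := Finset.univ.erase ⟨_, irrOne_mem_principal hM⟩)
        fun i hi => (e i (Finset.ne_of_mem_erase hi)).mul_right (charDegree (i.1 : G → ℂ))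
      rw [h4] at this
      omega
  exact ⟨D, hD, hc, fun t χ => by have := h2 t χ; have := hc.bd t χ; omega⟩

omit r hM in
theorem cen_sub : (⟨z, h.pc h.mem⟩ : centralizer ({z} : Set G)) ∈ center _ :=
  mem_center_of_centralizer_eq rfl _

theorem K_eq {g k : centralizer ({z} : Set G)} (hg : 3 ∣ orderOf g) : K M (g : G) k = K M g k := by
  have := Fintype.ofFinite (centralizer ({z} : Set G))
  have h' := h.sub h.pc
  have r' := h.reps_sub r
  have z0 : ¬ IsConj (pPart 3 (g : G)) (pPart 3 (k : G)) → K M (g : G) k = K M g k := fun e => by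
    rw [K_zero hM e, K_zero hM fun e' => e ?_]
    rw [pPart_coe, pPart_coe]
    exact (centralizer {z}).subtype.map_isConj e'
  have z1 : ∀ a : centralizer ({z} : Set G), pPart 3 a ∈ zpowers ⟨z, h.pc h.mem⟩ →
      pPart 3 (a : G) ∈ zpowers z := fun a e => by
    rw [← mem_map_subtype, MonoidHom.map_zpowers, ← pPart_coe] at e; exact e
  have z2 : ∀ (a : centralizer ({z} : Set G)) t, IsConj (pPart 3 a) ⟨u t, h.pc (r.mem t)⟩ →
      IsConj (pPart 3 (a : G)) (u t) := fun a t e => by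
    rw [pPart_coe]; exact (centralizer {z}).subtype.map_isConj e
  by_cases e : IsConj (pPart 3 (g : G)) (pPart 3 (k : G)); swap; · exact z0 e
  rcases h'.cls3 r' h.cen_sub g with e1 | ⟨s, e1⟩ <;> rcases h'.cls3 r' h.cen_sub k with e2 | ⟨t, e2⟩
  · obtain ⟨c, hc⟩ := isConj_iff.1 e
    have e3 := (h.isoZ (z1 _ e1) (hc ▸ h.zle (z1 _ e2))).symm.trans hc
    have e4 : pPart 3 g = pPart 3 k := Subtype.ext (by rwa [← pPart_coe, ← pPart_coe])
    have e5 : centralizer {pPart 3 (g : G)} = centralizer {z} := by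
      rcases (mem_zp h.ord).1 (z1 _ e1) with e | e | e
      · exact absurd (by rwa [orderOf_coe]) (pPart_eq_one_iff.1 e)
      · rw [e]
      · rw [e, ← PLocal.Amb.centralizer_zpowers, zpowers_inv, PLocal.Amb.centralizer_zpowers]
    have e6 := K_sec hM (orderOf_pPart 3 (g : G)) e5 (not_dvd_orderOf_pReg 3 g)
      (not_dvd_orderOf_pReg 3 k)
    rw [← K_cen (zpowers_le.2 h.cen_sub e1), pPart_mul_pReg, e4, pPart_mul_pReg, ← pReg_coe,
      ← pReg_coe, pPart_mul_pReg, e3, pPart_mul_pReg] at e6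
    exact e6
  · exact absurd ((z2 _ _ e2).symm.trans e.symm) (h.nconj r (z1 _ e1) t)
  · exact absurd ((z2 _ _ e1).symm.trans e) (h.nconj r (z1 _ e2) s)
  · obtain rfl := r.inj _ _ ((z2 _ _ e1).symm.trans (e.trans (z2 _ _ e2)))
    rw [h.K_u r hM (z2 _ _ e1) (z2 _ _ e2), h'.K_u r' hM e1 e2]

theorem iso_inner [Fintype (principalBlock M G)] [Fintype (centralizer ({z} : Set G))]
    (x : centralizer ({z} : Set G) → ℂ) {x' : centralizer ({z} : Set G) → ℂ}
    (hx' : ∀ g, ¬ 3 ∣ orderOf g → x' g = 0) :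
    ∑ χ : principalBlock M G, classInner x (fun g => (χ.1 : G → ℂ) g) *
      conj (classInner x' fun g => (χ.1 : G → ℂ) g) =
      classInner (blockPart (principalBlock M _) x) x' := by
  have := Fintype.ofFinite (principalBlock M (centralizer ({z} : Set G)))
  rw [classInner_blockPart_left, fs, sum_inner, sum_inner]
  congr 1
  refine Finset.sum_congr rfl fun g _ => Finset.sum_congr rfl fun k _ => ?_
  by_cases e : 3 ∣ orderOf k
  · have := h.K_eq r hM (k := g) e
    rw [K, K, fs, fs] at this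
    rw [this]
  · simp [hx' k e]

end XS

end Cfsg.Agent.XS3
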