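import Mathlib
import Cfsg.Agent.XS3.Blk

/-! The principal `3`-block when the centre of the extraspecial Sylow subgroup is central. -/

set_option autoImplicit false
set_option linter.unusedSectionVars false

namespace Cfsg.Agent.XS3

open Subgroup Cfsg Cfsg.Agent.PLocal.Amb Cfsg.Agent.Block Cfsg.Agent.Char
open scoped ComplexConjugate commutatorElement

variable {G : Type*} [Group G] [Fintype G] {M : Ideal AlgInt}

/-- the value at the regular part -/
noncomputable def Y (ψ : IrrCharacter G) : G → ℂ := fun g => (ψ : G → ℂ) (pReg 3 g)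

theorem isGen_Y (ψ : IrrCharacter G) : IsGeneralizedCharacter G (Y ψ) :=
  isGen_comp_pReg ψ.2.isClassFunction fun H _ => ψ.2.isGen.restrict H

theorem Y_reg (ψ : IrrCharacter G) {g : G} (hg : ¬ 3 ∣ orderOf g) : Y ψ g = (ψ : G → ℂ) g := by
  rw [Y, pReg_eq_self_iff.2 hg]

theorem part_inner (A : Set (IrrCharacter G)) [Fintype A] (x x' : G → ℂ) :
    classInner (blockPart A x) x' =
      ∑ ξ : A, classInner x (ξ.1 : G → ℂ) * conj (classInner x' (ξ.1 : G → ℂ)) := by
  rw [classInner_blockPart_left, fs]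

theorem exists_om : ∃ ω : ℂ, ω ^ 2 + ω + 1 = 0 := by
  refine ⟨(-1 + Complex.I * √3) / 2, ?_⟩
  have : ((√3 : ℝ) : ℂ) ^ 2 = 3 := by exact_mod_cast Real.sq_sqrt (by norm_num : (0 : ℝ) ≤ 3)
  linear_combination (Complex.I ^ 2 / 4) * this + (3 / 4) * Complex.I_sq

theorem om_cases {ω c : ℂ} (hω : ω ^ 2 + ω + 1 = 0) (hc : c ^ 3 = 1) :
    c = 1 ∨ c = ω ∨ c = ω ^ 2 := by
  have : (c - 1) * ((c - ω) * (c - ω ^ 2)) = 0 := by
    linear_combination hc + (-c ^ 2 + c * ω - ω + 1) * hω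
  simpa [sub_eq_zero] using this

theorem om_ne {ω : ℂ} (hω : ω ^ 2 + ω + 1 = 0) : ω ≠ 1 ∧ ω ^ 2 ≠ 1 ∧ ω ^ 2 ≠ ω ∧
    (ω ^ 2) ^ 2 = ω := by
  have h1 : ω ≠ 1 := by rintro rfl; norm_num at hω
  refine ⟨h1, fun e => ?_, fun e => ?_, by linear_combination (ω ^ 2 - ω) * hω⟩
  · have : ω = -2 := by linear_combination hω - e
    rw [this] at e; norm_num at e
  · have : ω = -1 / 2 := by linear_combination hω / 2 - e / 2
    rw [this] at e; norm_num at e

/-- The generalized characters vanishing on regular elements used to describe the block. -/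
structure Loc (M : Ideal AlgInt) (z : G) {T J : Type*} [Fintype T] [Fintype J] [DecidableEq J]
    (u : T → G) (x r : J → G → ℂ) (a : J → T → ℤ) : Prop where
  gx : ∀ j, IsGeneralizedCharacter G (x j)
  gr : ∀ j, IsGeneralizedCharacter G (r j)
  x0 : ∀ j g, ¬ 3 ∣ orderOf g → x j g = 0
  r0 : ∀ j g, ¬ 3 ∣ orderOf g → r j g = 0
  xD : ∀ j s, classInner (blockPart (principalBlock M G) (x j)) (dl (u s)) = (3 * a j s : ℤ)
  xx : ∀ j k, classInner (blockPart (principalBlock M G) (x j)) (x k) =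
    ((if j = k then 2 else 0) + ∑ s, a j s * a k s : ℤ)
  a3 : ∀ j, ¬ 3 ∣ ∑ s, a j s
  rr : ∀ j k, classInner (blockPart (principalBlock M G) (r j)) (r k) = (if j = k then 2 else 0 : ℤ)
  rx : ∀ j k, classInner (blockPart (principalBlock M G) (r j)) (x k) =
    (if j = k then -1 else 0 : ℤ)
  rD : ∀ j s, classInner (blockPart (principalBlock M G) (r j)) (dl (u s)) = (0 : ℤ)
  c6 : Fintype.card T + Fintype.card J = 6
  cb : Nat.card (principalBlock M G) = 6 + 2 * Fintype.card J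
  cov : ∃ (α β : J → ℂ) (c : T → ℂ), blockPart (principalBlock M G)
    (dl z + ∑ j, α j • x j + ∑ j, β j • r j - ∑ t, c t • dl (u t)) = 0

namespace XS

variable {P : Subgroup G} {z : G} {T : Type*} {u : T → G} (h : XS P z) (hz : z ∈ center G)
include h hz

theorem zu {g : G} (r : Reps P z u) {t : T} (e : IsConj g (u t)) : IsConj (z * g) (u t) := by
  obtain ⟨c, rfl⟩ := isConj_iff.1 e.symm
  obtain ⟨x, -, hx⟩ := h.exists_conj (r.mem t) (r.nmem t) (mem_zpowers z)
  refine (isConj_iff.2 ⟨c * x, ?_⟩).symm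
  rw [← mul_assoc, ← mul_assoc, ← mem_center_iff.1 hz c, mul_assoc c z, ← hx]; group

theorem val_z (ξ : IrrCharacter G) {g : G} (e : pPart 3 g ∈ zpowers z) :
    (ξ : G → ℂ) g = Block.cen ξ (pPart 3 g) * Y ξ g := by
  rw [Y, ← apply_center_mul ξ.2 (zpowers_le.2 hz e), pPart_mul_pReg]

theorem cen_eq {ξ η : IrrCharacter G} (e : Block.cen (ξ : G → ℂ) z = Block.cen (η : G → ℂ) z) {w : G}
    (hw : w ∈ zpowers z) : Block.cen (ξ : G → ℂ) w = Block.cen (η : G → ℂ) w := by
  obtain ⟨n, rfl⟩ := mem_powers_iff_mem_zpowers.2 hw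
  simp only [cen_pow ξ.2 hz, cen_pow η.2 hz, e]

theorem cen_eq_one {ξ : IrrCharacter G} (e : Block.cen (ξ : G → ℂ) z = 1) {w : G}
    (hw : w ∈ zpowers z) : Block.cen (ξ : G → ℂ) w = 1 :=
  (h.cen_eq hz (η := irrOne G) (e.trans (by simp [Block.cen])) hw).trans (by simp [Block.cen])

theorem cen3 (ξ : IrrCharacter G) : Block.cen (ξ : G → ℂ) z ^ 3 = 1 :=
  cen_pow_eq_one ξ.2 hz (h.exp z h.mem)

theorem Y_inner (ψ : IrrCharacter G) {η : IrrCharacter G} (e : Block.cen (η : G → ℂ) z ≠ 1) :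
    classInner (Y ψ) η = 0 := by
  have := classInner_center_mul (Y ψ) η.2 hz
  simp only [Y, pReg_mul_of_commute (p := 3) (mem_center_iff.1 hz _).symm ⟨1, h.ord⟩] at this
  exact eq_zero_of_mul_eq_self_left e this.symm

theorem exists_sigma (M : Ideal AlgInt) : ∃ σ : principalBlock M G ≃ principalBlock M G,
    (∀ ξ g, ¬ 3 ∣ orderOf g → ((σ ξ).1 : G → ℂ) g = (ξ.1 : G → ℂ) g) ∧
      ∀ ξ, Block.cen ((σ ξ).1 : G → ℂ) z = Block.cen (ξ.1 : G → ℂ) z ^ 2 := by
  obtain ⟨a, n, hn, e⟩ := Nat.exists_eq_pow_mul_and_not_dvd (Nat.card_pos (α := G)).ne' 3 (by omega)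
  have hc := Nat.prime_three.coprime_iff_not_dvd.2 hn
  obtain ⟨k, h1, h2⟩ := Nat.chineseRemainder hc 2 1
  have hk : k.Coprime (Nat.card G) := by
    rw [e]
    refine Nat.Coprime.mul_right (Nat.Coprime.pow_right _ ?_) ?_
    · rw [Nat.Coprime, h1.gcd_eq]; rfl
    · rw [Nat.Coprime, h2.gcd_eq, Nat.gcd_one_left]
  refine ⟨Equiv.ofBijective (fun ξ => ⟨powIrr hk ξ.1, powIrr_mem_principal hk ξ.2⟩)
    (Finite.injective_iff_bijective.1 fun ξ η e => Subtype.ext (Subtype.ext (funext fun g => ?_))),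
    fun ξ g hg => ?_, fun ξ => ?_⟩
  · obtain ⟨g, rfl⟩ := (powCoprime hk.symm).surjective g
    exact congrFun (congrArg (·.1.1) e) g
  · refine congrArg ξ.1.1 ((pow_eq_pow_iff_modEq.2 (h2.of_dvd ?_)).trans (pow_one g))
    exact ((not_dvd_iff_coprime.1 hg).pow_right a).dvd_of_dvd_mul_left (e ▸ orderOf_dvd_natCard g)
  · rw [← cen_pow ξ.1.2 hz, ← pow_eq_pow_iff_modEq.2 (h.ord ▸ h1)]
    simp [Block.cen, powIrr]

variable (r : Reps P z u) (hM : IsPModular 3 M)
include r hM

theorem irr_u0 {ξ : IrrCharacter G} (e : Block.cen (ξ : G → ℂ) z ≠ 1) {g : G} {t : T}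
    (hξ : ξ ∈ principalBlock M G) (e' : IsConj (pPart 3 g) (u t)) : (ξ : G → ℂ) g = 0 := by
  rw [h.val_u r hM hξ e']
  have := ξ.2.isClassFunction.eq_of_isConj (h.zu hz r (IsConj.refl (u t)))
  rw [apply_center_mul ξ.2 hz] at this
  exact eq_zero_of_mul_eq_self_left e this

theorem irr_ne {ξ : IrrCharacter G} (hξ : ξ ∈ principalBlock M G)
    (e : Block.cen (ξ : G → ℂ) z = 1) (t : T) : (ξ : G → ℂ) (u t) ≠ 0 := by
  have hZ := zpowers_le.2 hz
  have : (zpowers z).Normal := ⟨fun n hn g => by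
    rwa [mem_center_iff.1 (hZ hn), mul_inv_cancel_right]⟩
  obtain ⟨ψ, hψ⟩ := exists_irr_deflation (zpowers z) ξ.2 fun n hn => by
    rw [apply_center ξ.2, h.cen_eq_one hz e hn, one_mul]
  rw [← hψ]
  refine apply_ne_zero_of_mem_principal hM ((inflateIrr_mem_principal_iff hM _ hZ
    (h.syl.pgrp.to_le h.zle) ψ).1 (by convert hξ; exact Subtype.ext (funext hψ))) fun e => h.nidx ?_
  refine (e.trans (index_dvd_of_le ?_)).trans (index_map_dvd P (QuotientGroup.mk'_surjective _))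
  rintro _ ⟨x, hx, rfl⟩
  rw [mem_centralizer_singleton_iff, ← commutatorElement_eq_one_iff_mul_comm]
  exact (QuotientGroup.eq_one_iff ⁅x, u t⁆).2 (h.comm x hx _ (r.mem t))

theorem part_u (θ : G → ℂ) {g : G} {t : T} (e : IsConj (pPart 3 g) (u t)) :
    blockPart (principalBlock M G) θ g = blockPart (principalBlock M G) θ (u t) := by
  rw [blockPart_apply, blockPart_apply, finsum_mem_congr rfl fun χ hχ => by rw [h.val_u r hM hχ e]]

theorem part_z {ψ : IrrCharacter G} (hψ : ψ ∈ principalBlock M G) {g : G}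
    (e : pPart 3 g ∈ zpowers z) : blockPart (principalBlock M G) (Y ψ) g = Y ψ g := by
  have h0 := cen_ne_zero ψ.2 (zpowers_le.2 hz e)
  have h1 : ∀ x, IsConj (pPart 3 g) (pPart 3 x) →
      Y ψ x = ((Block.cen (ψ : G → ℂ) (pPart 3 g))⁻¹ • (ψ : G → ℂ)) x := fun x hx => by
    obtain ⟨c, hc⟩ := isConj_iff.1 hx
    rw [mem_center_iff.1 (zpowers_le.2 hz e) c, mul_inv_cancel_right] at hc
    rw [Pi.smul_apply, h.val_z hz ψ (hc ▸ e), ← hc, smul_eq_mul, inv_mul_cancel_left₀ h0]
  rw [blockPart_congr_of_val hM (val_blockCoeff_principal_le_one hM) h1, blockPart_smul,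
    blockPart_irr_of_mem hψ, h1 g (IsConj.refl _)]

variable [Fintype T]

theorem avg {F F' : G → ℂ} {c : T → ℂ} (h1 : ∀ g, pPart 3 g ∈ zpowers z → F g = F' g)
    (h2 : ∀ g t, IsConj (pPart 3 g) (u t) → F g = F' g + c t) :
    (Nat.card G : ℂ)⁻¹ * ∑ g, F g = (Nat.card G : ℂ)⁻¹ * ∑ g, F' g + ∑ t, c t / 9 := by
  classical
  have h3 : ∀ g, F g = F' g + ∑ t, c t / 81 * (K M g (u t) * conj (K M g (u t))) := fun g => by
    rcases h.cls3 r hz g with e | ⟨s, e⟩
    · simp [h1 g e, h.K_zu r hM e]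
    · rw [h2 g s e, Finset.sum_eq_single s (fun t _ e' => by simp [h.K_uu r hM e, e'.symm])
        (by simp), h.K_uu r hM e, if_pos rfl, map_ofNat]
      ring
  have h4 : ∀ t, (Nat.card G : ℂ)⁻¹ * ∑ g, K M g (u t) * conj (K M g (u t)) = 9 := fun t => by
    simp only [← part_dl]
    rw [← classInner_def, ← classInner_blockPart_comm, blockPart_blockPart_self, inner_dl, part_dl,
      h.K_uu r hM (by rw [pp (h.ordu r t)]), if_pos rfl]
  simp only [h3, Finset.sum_add_distrib, mul_add]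
  rw [Finset.sum_comm, Finset.mul_sum Finset.univ fun t => ∑ g, _]
  congr 1
  refine Finset.sum_congr rfl fun t _ => ?_
  rw [← Finset.mul_sum, mul_left_comm, h4]
  ring

open Classical in
theorem gramY {ψ ψ' : IrrCharacter G} (hψ : ψ ∈ principalBlock M G) (hψ' : ψ' ∈ principalBlock M G)
    (e : Block.cen (ψ : G → ℂ) z = Block.cen (ψ' : G → ℂ) z) (e1 : Block.cen (ψ : G → ℂ) z ≠ 1) :
    classInner (blockPart (principalBlock M G) (Y ψ)) (Y ψ') = (if ψ = ψ' then 1 else 0) +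
      ∑ t, blockPart (principalBlock M G) (Y ψ) (u t) *
        conj (blockPart (principalBlock M G) (Y ψ') (u t)) / 9 := by
  rw [show classInner _ (Y ψ') = classInner _ (blockPart (principalBlock M G) (Y ψ')) by
    rw [← classInner_blockPart_comm, blockPart_blockPart_self], ← irr_inner, classInner_def,
    classInner_def]
  refine h.avg hz r hM (fun g hg => ?_) fun g t hg => ?_
  · rw [h.part_z hz r hM hψ hg, h.part_z hz r hM hψ' hg, h.val_z hz ψ hg, h.val_z hz ψ' hg,
      ← h.cen_eq hz e hg, map_mul, mul_mul_mul_comm, cen_mul_conj ψ.2 (zpowers_le.2 hz hg), one_mul]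
  · rw [h.irr_u0 hz r hM e1 hψ hg, zero_mul, zero_add, h.part_u hz r hM _ hg, h.part_u hz r hM _ hg]

theorem trace [Fintype (principalBlock M G)] :
    ∑ η : principalBlock M G, Block.cen (η.1 : G → ℂ) z = Fintype.card T := by
  have h1 := h.avg hz r hM (F := fun g => K M (z * g) g) (F' := 0) (c := fun _ => 9)
    (fun g hg => K_zero hM fun e => by
      obtain ⟨c, hc⟩ := isConj_iff.1 e.symm
      rw [mem_center_iff.1 (zpowers_le.2 hz hg) c, mul_inv_cancel_right,
        pPart_mul_of_commute (mem_center_iff.1 hz _).symm ⟨1, h.ord⟩, eq_comm, mul_eq_right] at hc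
      have := h.ord
      rw [hc, orderOf_one] at this
      omega) fun g t e => by
    rw [Pi.zero_apply, zero_add]
    refine h.K_u r hM ?_ e
    rw [pPart_mul_of_commute (mem_center_iff.1 hz _).symm ⟨1, h.ord⟩]
    exact h.zu hz r e
  simp only [K, fs] at h1
  rw [Finset.sum_comm, Finset.mul_sum] at h1
  refine (Finset.sum_congr rfl fun η _ => ?_).trans (h1.trans (by simp))
  rw [← classInner_def (fun g => (η.1 : G → ℂ) (z * g)), classInner_center_mul _ η.1.2 hz,
    η.1.2.inner_self, mul_one]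

theorem cover {w : G → ℂ} (h1 : ∀ g, ¬ 3 ∣ orderOf g → w g = 0)
    (h2 : ∀ ξ ∈ principalBlock M G, Block.cen (ξ : G → ℂ) z ≠ 1 → classInner w ξ = 0) :
    ∃ c : T → ℂ, blockPart (principalBlock M G) (w - ∑ t, c t • dl (u t)) = 0 := by
  classical
  refine ⟨fun t => blockPart (principalBlock M G) w (u t) / 9, funext fun g => ?_⟩
  simp only [blockPart_sub, blockPart_sum, blockPart_smul, Pi.sub_apply, Finset.sum_apply,
    Pi.smul_apply, part_dl, smul_eq_mul, Pi.zero_apply]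
  rcases h.cls3 r hz g with e | ⟨s, e⟩
  · have h3 : blockPart (principalBlock M G) w (pReg 3 g) = 0 :=
      blockPart_eq_zero_of_val hM (val_blockCoeff_principal_le_one hM) fun x hx => h1 x (by
        rwa [pPart_eq_one_iff.2 (not_dvd_orderOf_pReg 3 g), isConj_one_right,
          pPart_eq_one_iff] at hx)
    simp only [h.K_zu r hM e, mul_zero, Finset.sum_const_zero, sub_zero]
    rw [← h3, blockPart_apply, blockPart_apply]
    refine finsum_mem_congr rfl fun ξ hξ => ?_
    by_cases e' : Block.cen (ξ : G → ℂ) z = 1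
    · rw [h.val_z hz ξ e, h.cen_eq_one hz e' e, one_mul, Y]
    · simp [h2 ξ hξ e']
  · rw [h.part_u hz r hM _ e, Finset.sum_eq_single s (fun t _ e' => by
      simp [h.K_uu r hM e, e'.symm]) (by simp), h.K_uu r hM e, if_pos rfl]
    ring

theorem exists_loc (t : T) (hr : ∀ t, IsConj (u t) (u t)⁻¹) : ∃ (m : ℕ) (x r : Fin m → G → ℂ)
    (a : Fin m → T → ℤ), Loc M z u x r a := by
  classical
  obtain ⟨ω, hω⟩ := exists_om
  obtain ⟨o1, o2, o3, o4⟩ := om_ne hω
  obtain ⟨σ, s1, s2⟩ := h.exists_sigma hz M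
  obtain ⟨D, hD, hc, hd⟩ := h.col r hM hr
  obtain ⟨c, c0⟩ : ∃ c : principalBlock M G → ℂ, ∀ η, Block.cen (η.1 : G → ℂ) z = c η :=
    ⟨_, fun _ => rfl⟩
  have c3 : ∀ η, c η = 1 ∨ c η = ω ∨ c η = ω ^ 2 := fun η => om_cases hω (c0 η ▸ h.cen3 hz _)
  have c4 : ∀ η, c η = ω ↔ c (σ η) = ω ^ 2 := fun η => by
    rw [← c0 (σ η), s2, c0]
    rcases c3 η with e | e | e <;> simp [e, o1.symm, o2.symm, o3, o3.symm, o4]
  obtain ⟨m, p, pm, p1, p3, p4⟩ : ∃ (m : ℕ) (p : Fin m → principalBlock M G),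
      (Finset.univ.filter (c · = ω)).card = m ∧ (∀ j, c (p j) = ω) ∧ (∀ j k, p j = p k ↔ j = k) ∧
        ∀ η, c η = ω → ∃ j, p j = η := by
    let e := (Finset.univ.filter (c · = ω)).equivFin.symm
    exact ⟨_, fun j => e j, rfl, fun j => (Finset.mem_filter.1 (e j).2).2,
      fun j k => Subtype.ext_iff.symm.trans e.apply_eq_iff_eq,
      fun η hη => ⟨e.symm ⟨η, by simpa using hη⟩, by simp⟩⟩
  have p2 : ∀ j, c (σ (p j)) = ω ^ 2 := fun j => (c4 _).1 (p1 j)
  have q1 : ∀ j, Block.cen ((p j).1 : G → ℂ) z ≠ 1 := fun j => by rwa [c0, p1]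
  have q2 : ∀ j, Block.cen ((σ (p j)).1 : G → ℂ) z ≠ 1 := fun j => by rwa [c0, p2]
  have ii : ∀ ξ η : principalBlock M G, classInner (ξ.1 : G → ℂ) η.1 = if ξ = η then 1 else 0 :=
    fun ξ η => by simp only [irr_inner, Subtype.ext_iff]
  have n1 : ∀ j k, p j ≠ σ (p k) := fun j k e => o3 (by rw [← p2 k, ← e, p1])
  have y1 : ∀ j k, classInner (Y (p j).1) ((p k).1 : G → ℂ) = 0 := fun j k =>
    h.Y_inner hz (p j).1 (q1 k)
  have y2 : ∀ j k, classInner (Y (p j).1) ((σ (p k)).1 : G → ℂ) = 0 := fun j k =>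
    h.Y_inner hz (p j).1 (q2 k)
  have y3 : ∀ j k, classInner ((p k).1 : G → ℂ) (Y (p j).1) = 0 := fun j k => by
    rw [← classInner_conj_symm, y1, map_zero]
  have y4 : ∀ j k, classInner ((σ (p k)).1 : G → ℂ) (Y (p j).1) = 0 := fun j k => by
    rw [← classInner_conj_symm, y2, map_zero]
  have u1 : ∀ η : principalBlock M G, Block.cen (η.1 : G → ℂ) z ≠ 1 → ∀ s,
      (η.1 : G → ℂ) (u s) = 0 := fun η hη s => h.irr_u0 hz r hM hη η.2 (by rw [pp (h.ordu r s)])
  choose a ha using fun j s => show ∃ a : ℤ,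
      blockPart (principalBlock M G) (Y (p j).1) (u s) = (3 * a : ℤ) by
    have g1 := isGen_blockPart_of (principalBlock M G) (isGen_Y (p j).1)
    obtain ⟨d, e1⟩ := h.int_u r (hr s) g1
    have e2 := val_gen_sub_pReg_lt_one hM g1 (u s)
    rw [pReg_eq_one_iff.2 ⟨1, h.ordu r s⟩, e1, h.part_z hz r hM (p j).2 (by simp [pPart_one]),
      Y_reg _ not_dvd_orderOf_one, ← coe_charDegree_irr] at e2
    have e3 := (val_intCast_lt_one_iff hM (d - charDegree ((p j).1 : G → ℂ))).1 (by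
      push_cast; exact e2)
    have e4 := (hd s (p j)).2.mt (not_not.2 (Int.cast_injective (α := ℂ) (by
      rw [← hD, u1 _ (q1 j), Int.cast_zero])))
    exact ⟨d / 3, by rw [e1]; congr 1; omega⟩
  have gr : ∀ j k, classInner (blockPart (principalBlock M G) (Y (p j).1)) (Y (p k).1) =
      ((if j = k then 1 else 0) + ∑ s, a j s * a k s : ℤ) := fun j k => by
    rw [h.gramY hz r hM (p j).2 (p k).2 (by rw [c0, c0, p1, p1]) (q1 j)]
    simp only [ha, ← Subtype.ext_iff, p3, map_intCast]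
    push_cast
    congr 1
    exact Finset.sum_congr rfl fun s _ => by ring
  have dD : ∀ s (η : principalBlock M G), classInner (dl (u s)) (η.1 : G → ℂ) = D s η :=
    fun s η => by rw [dl_inner, hD, map_intCast]
  have l0 : ∀ j, ¬ 3 ∣ ∑ s, a j s ∧ (supp (D t)).card = 6 := fun j => by
    choose y hy using fun η : principalBlock M G => (isGen_Y (p j).1).exists_int_inner η.1.2.isGen
    refine hc.loc t (y := y) (fun s => Int.cast_injective (α := ℂ) ?_)
      (Int.cast_injective (α := ℂ) ?_) fun η hη => Int.cast_injective (α := ℂ) ?_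
    · rw [← dot_cast hy (dD s), ← part_inner, inner_dl, ha]
    · rw [← dot_cast hy hy, ← part_inner, gr, if_pos rfl]
    · rw [← hy, Int.cast_zero]
      exact h.Y_inner hz _ fun e => h.irr_ne hz r hM η.2 e t (by rw [hD, hη, Int.cast_zero])
  have k0 : supp (D t) = Finset.univ.filter (c · = 1) := by
    ext η
    rw [mem_supp, ← Int.cast_ne_zero (α := ℂ), ← hD, Finset.mem_filter_univ, ← c0]
    exact ⟨fun e => by_contra fun e' => e (u1 η e' t), fun e => h.irr_ne hz r hM η.2 e t⟩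
  have k2 : (Finset.univ.filter (c · = ω ^ 2)).card = m :=
    (Finset.card_equiv σ (by simpa using c4)).symm.trans pm
  have k3 : ∀ f : ℂ → ℂ, ∑ η, f (c η) = (supp (D t)).card * f 1 +
      m * (f ω + f (ω ^ 2)) := fun f => by
    rw [mul_add]
    nth_rewrite 2 [← k2]
    rw [k0, ← pm]
    simp only [Finset.card_filter, Nat.cast_sum, Finset.sum_mul, ← Finset.sum_add_distrib]
    refine Finset.sum_congr rfl fun η _ => ?_
    rcases c3 η with e | e | e <;> simp [e, o1, o2, o3, o1.symm, o2.symm, o3.symm]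
  have k4 : (supp (D t)).card = 6 := by
    by_cases e : ∃ η, c η = ω
    · obtain ⟨η, e⟩ := e
      exact (l0 (p4 η e).choose).2
    have e1 : ∀ η, c η = 1 := fun η => (c3 η).resolve_right fun e' => e (e'.elim (⟨η, ·⟩)
      fun e' => ⟨σ.symm η, (c4 _).2 (by simpa using e')⟩)
    have e2 := K_zero hM (g := z) (h := 1) fun e => by
      rw [pp h.ord, pPart_one, isConj_one_left] at e
      simpa [e] using h.ord
    rw [K, fs, dot_cast (v := fun χ => charDegree (χ.1 : G → ℂ)) (fun η => by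
      rw [apply_center η.1.2, c0, e1, one_mul]
      exact (coe_charDegree_irr _).symm) fun η => (coe_charDegree_irr _).symm, Int.cast_eq_zero,
      dotProduct_self_eq_zero] at e2
    simpa [charDegree_irrOne] using congrFun e2 ⟨_, irrOne_mem_principal hM⟩
  refine ⟨_, fun j => Y (p j).1 - (p j).1, fun j => (p j).1 - (σ (p j)).1, a,
    fun j => (isGen_Y _).sub (p j).1.2.isGen, fun j => (p j).1.2.isGen.sub (σ (p j)).1.2.isGen,
    fun j g hg => by simp [Y_reg _ hg], fun j g hg => by simp [s1 _ g hg], fun j s => ?_,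
    fun j k => ?_, fun j => (l0 j).1, fun j k => ?_, fun j k => ?_, fun j s => ?_, ?_, ?_, ?_⟩
  · rw [inner_dl, blockPart_sub, blockPart_irr_of_mem (p j).2, Pi.sub_apply, ha,
      u1 _ (q1 j), sub_zero]
  · simp only [blockPart_sub, blockPart_irr_of_mem (p j).2, classInner_sub_left,
      classInner_sub_right, gr, classInner_blockPart, y1, y3, ii, p3]
    split_ifs <;> push_cast <;> ring
  · simp only [blockPart_sub, blockPart_irr_of_mem (Subtype.prop _), classInner_sub_left,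
      classInner_sub_right, ii, p3, n1, (n1 _ _).symm, σ.apply_eq_iff_eq, if_false]
    split_ifs <;> norm_num
  · simp only [blockPart_sub, blockPart_irr_of_mem (Subtype.prop _), classInner_sub_left,
      classInner_sub_right, ii, p3, y3, y4, (n1 _ _).symm, if_false]
    split_ifs <;> norm_num
  · simp [inner_dl, blockPart_sub, blockPart_irr_of_mem (Subtype.prop _),
      u1 _ (q1 j), u1 _ (q2 j)]
  · have := k3 id
    simp only [id, ← c0] at this
    rw [k4, h.trace hz r hM] at this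
    rw [Fintype.card_fin]
    refine Nat.cast_injective (R := ℂ) ?_
    push_cast at this ⊢
    linear_combination this + (m : ℂ) * hω
  · have := k3 fun _ => 1
    rw [k4, Finset.sum_const, Finset.card_univ, nsmul_eq_mul] at this
    rw [Fintype.card_fin, Nat.card_eq_fintype_card]
    refine Nat.cast_injective (R := ℂ) ?_
    push_cast at this ⊢
    linear_combination this
  · refine ⟨fun j => conj (((p j).1 : G → ℂ) z) + conj (((σ (p j)).1 : G → ℂ) z),
      fun j => conj (((σ (p j)).1 : G → ℂ) z), h.cover hz r hM (fun g hg => by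
        simp [dl_reg h.ord hg, Finset.sum_apply, Y_reg _ hg, s1 _ g hg]) fun ξ hξ e => ?_⟩
    obtain ⟨k, e | e⟩ : ∃ k, ξ = (p k).1 ∨ ξ = (σ (p k)).1 := by
      rcases (c3 ⟨ξ, hξ⟩).resolve_left (c0 _ ▸ e) with e | e
      · obtain ⟨k, hk⟩ := p4 _ e
        exact ⟨k, Or.inl (by rw [hk])⟩
      · obtain ⟨k, hk⟩ := p4 (σ.symm ⟨ξ, hξ⟩) ((c4 _).2 (by simpa using e))
        exact ⟨k, Or.inr (by simp [hk])⟩
    all_goals
      simp [e, classInner_add_left, classInner_sum_left, classInner_smul_left, classInner_sub_left,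
        dl_inner, y1, y2, ii, p3, n1, (n1 _ _).symm]

end XS

end Cfsg.Agent.XS3
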